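import Cfsg.Agent.Lib.KR.Lin
import Cfsg.Agent.Lib.Fit.Frattini
import Cfsg.Agent.S4956

/-! Class numbers of solvable groups with trivial `p'`-core, `p ≥ 5`. -/

set_option autoImplicit false
set_option linter.unusedSectionVars false
set_option linter.style.haveILetI false

namespace Cfsg.Agent.KR

open Subgroup Cfsg
open scoped IsMulCommutative

universe u

/-- The bound. -/
def fb (p d : ℕ) : ℕ := 3 ^ (d - 1) * p ^ d

theorem fb_mul (p a b : ℕ) : fb p a * fb p b ≤ fb p (a + b) := by
  unfold fb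
  rw [pow_add, mul_mul_mul_comm, ← pow_add]
  exact Nat.mul_le_mul_right _ (Nat.pow_le_pow_right (by norm_num) (by omega))

theorem pow_le_fb (p a : ℕ) : p ^ a ≤ fb p a := Nat.le_mul_of_pos_left _ (by positivity)

theorem fb_mono {p a b : ℕ} (hp : 0 < p) (h : a ≤ b) : fb p a ≤ fb p b :=
  Nat.mul_le_mul (Nat.pow_le_pow_right (by norm_num) (by omega)) (Nat.pow_le_pow_right hp h)

theorem kk_semidirect {X : Type u} [Group X] [Finite X] (V : Subgroup X) [V.Normal]
    [IsMulCommutative V] (G : Subgroup X) (hGV : IsComplement' V G)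
    (hcop : (Nat.card V).Coprime (Nat.card G)) :
    kk X * Nat.card G ≤ TT False ((cjRep V).comp G.subtype) ⊤ := by
  classical
  have := Fintype.ofFinite X
  let c : X → ℕ := fun v => Nat.card {t : G × G // Commute t.1 t.2 ∧ Commute v t.1 ∧ Commute v t.2}
  have h1 : Nat.card {t : X × X // Commute t.1 t.2} = Nat.card V * ∑ v : V, c v := by
    let e : ((G × G) × (V × V)) ≃ X × X :=
      (Equiv.prodProdProdComm _ _ _ _).trans (Equiv.prodCongr
        ((Equiv.prodComm _ _).trans (Equiv.ofBijective _ hGV))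
        ((Equiv.prodComm _ _).trans (Equiv.ofBijective _ hGV)))
    rw [← Nat.card_congr (e.subtypeEquiv (p := fun t => Commute ((t.2.1 : X) * t.1.1) (t.2.2 * t.1.2))
      fun t => Iff.rfl), Nat.card_congr (Equiv.subtypeProdEquivSigmaSubtype
        fun (t : G × G) (u : V × V) => Commute ((u.1 : X) * t.1) (u.2 * t.2)), Nat.card_sigma]
    have e2 : ∑ v : V, c v = ∑ t : G × G, Nat.card {v : V // Commute t.1 t.2 ∧
        Commute (v : X) t.1 ∧ Commute (v : X) t.2} := by
      simp only [c, Nat.card_eq_fintype_card, Fintype.card_subtype, Finset.card_filter]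
      exact Finset.sum_comm
    rw [e2, Finset.mul_sum]
    refine Finset.sum_congr rfl fun t _ => ?_
    by_cases ht : Commute t.1 t.2
    · simp only [ht, true_and]
      exact S4956.count_pairs V G hcop t.1.2 t.2.2 (congrArg Subtype.val ht.eq :)
    · simp only [ht, false_and, Nat.card_of_isEmpty, mul_zero]
      rw [Nat.card_eq_zero]
      refine Or.inl ⟨fun u => ht ?_⟩
      have h := congrArg (QuotientGroup.mk : X → X ⧸ V) u.2.eq
      simp only [QuotientGroup.mk_mul, (QuotientGroup.eq_one_iff _).mpr u.1.1.2,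
        (QuotientGroup.eq_one_iff _).mpr u.1.2.2, one_mul] at h
      rw [← QuotientGroup.mk_mul, ← QuotientGroup.mk_mul, QuotientGroup.eq] at h
      have h' := Subgroup.disjoint_def.mp hGV.disjoint h (((t.1 * t.2)⁻¹ * (t.2 * t.1)).2)
      exact Subtype.ext (inv_mul_eq_one.mp h')
  rw [card_comm_eq_card_conjClasses_mul_card, ← hGV.card_mul_card, mul_left_comm] at h1
  rw [Nat.eq_of_mul_eq_mul_left Nat.card_pos h1, ← finsum_eq_sum_of_fintype]
  have key : ∀ (v : V) (g : G), Commute (v : X) g →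
      g ∈ stb ((cjRep V).comp G.subtype) (Additive.ofMul v) := fun v g h =>
    Additive.toMul.injective (Subtype.ext ((cjRep_apply V g _).trans
      (mul_inv_eq_iff_eq_mul.2 h.eq.symm)))
  exact finsum_le_of_inj (fun v : V => ⟨Additive.ofMul v, trivial, False.elim⟩)
    (fun a b e => Additive.ofMul.injective (congrArg Subtype.val e)) _ _ fun v =>
    Nat.card_le_card_of_injective (fun t => ⟨t.1, key v _ t.2.2.1, key v _ t.2.2.2, t.2.1⟩)
      fun _ _ e => Subtype.ext (congrArg Subtype.val e :)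

theorem compl_of_frattini {X : Type*} [Group X] [Finite X] (h : frattini X = ⊥) (V : Subgroup X)
    [V.Normal] [IsMulCommutative V] (S : Subgroup X) (hS : S.Normal) (hSV : S ≤ V) :
    ∃ S' : Subgroup X, S'.Normal ∧ S' ≤ V ∧ S ⊓ S' = ⊥ ∧ V ≤ S ⊔ S' := by
  obtain ⟨T, ⟨h1, h2, h3⟩, hT⟩ := exists_minimal_of_wellFoundedLT
    (fun T : Subgroup X => T.Normal ∧ T ≤ V ∧ V ≤ S ⊔ T) ⟨V, inferInstance, le_rfl, le_sup_right⟩
  refine ⟨T, h1, h2, ?_, h3⟩
  by_contra hne
  obtain ⟨M, hM, hle⟩ : ∃ M : Subgroup X, IsCoatom M ∧ ¬ S ⊓ T ≤ M := by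
    by_contra h4
    push Not at h4
    exact hne (eq_bot_iff.2 (h ▸ Fit.le_frattini_iff.2 h4))
  have h4 : M ⊔ S ⊓ T = ⊤ := hM.2 _ (left_lt_sup.2 hle)
  refine hle (inf_le_right.trans ((hT (y := T ⊓ M) ⟨Fit.normal_of_sup_eq_top h4
    (Fit.le_normalizer_inf_of_normal T M) ((inf_le_left.trans hSV).trans
      (Fit.le_normalizer_of_le_of_isMulCommutative (inf_le_left.trans h2))),
    inf_le_left.trans h2, h3.trans (sup_le le_sup_left fun t ht => ?_)⟩ inf_le_left).trans
      inf_le_right))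
  have : t ∈ ((M ⊔ S ⊓ T : Subgroup X) : Set X) := h4 ▸ mem_top t
  rw [mul_normal] at this
  obtain ⟨m, hm, d, hd, rfl⟩ := this
  exact mul_mem (mem_sup_right ⟨by simpa using T.mul_mem ht (T.inv_mem hd.2), hm⟩)
    (mem_sup_left hd.1)

theorem fact_quot {X : Type*} [Group X] [Finite X] (p : ℕ) (N : Subgroup X) :
    (Nat.card X).factorization p =
      (Nat.card (X ⧸ N)).factorization p + (Nat.card N).factorization p := by
  rw [card_eq_card_quotient_mul_card_subgroup N,
    Nat.factorization_mul Nat.card_pos.ne' Nat.card_pos.ne', Finsupp.add_apply]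

theorem thmK_big {p : ℕ} (hp : p.Prime) (h5 : 5 ≤ p) (n : ℕ) : ∀ (X : Type u) [Group X] [Finite X]
    [Group.IsSolvable X], Nat.card X = n → pPrimeCore p X = ⊥ →
      kk X ≤ fb p ((Nat.card X).factorization p) := by
  haveI := Fact.mk hp
  induction n using Nat.strong_induction_on with
  | _ n ih =>
  intro X _ _ _ hn h0
  rcases subsingleton_or_nontrivial X with hX | hX
  · exact (kk_le_card X).trans (by simp [fb])
  have hF := Fit.fitting_eq_pCore hp h0
  by_cases hΦ : frattini X = ⊥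
  swap
  · have hΦp : IsPGroup p (frattini X) :=
      (Fit.isPGroup_pCore p X).to_le (Fit.frattini_le_fitting.trans hF.le)
    obtain ⟨k, hk⟩ := IsPGroup.iff_card.1 hΦp
    have h1 := ih _ (hn ▸ Fit.card_quotient_lt hΦ) (X ⧸ frattini X) rfl (by
      by_contra hne
      obtain ⟨N, hN, hN1, hN2, hN3⟩ := Fit.exists_minimal_normal_le _ hne
      obtain ⟨hN4, -⟩ := Fit.minimal_normal_elementary N inferInstance hN1 hN3
      have := Fit.le_fitting hN (Fit.isNilpotent_of_isMulCommutative N)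
      rw [← Fit.map_fitting_mk'_of_le_frattini _ le_rfl, hF] at this
      exact hN1 (Fit.eq_bot_of_isPGroup_of_coprime (((Fit.isPGroup_pCore p X).map _).to_le this)
        ((Fit.coprime_card_pPrimeCore p _).coprime_dvd_left (card_dvd_of_le hN2))))
    rw [fact_quot p (frattini X), hk, hp.factorization_pow, Finsupp.single_eq_same]
    exact (kk_le_quot _).trans ((Nat.mul_le_mul h1 ((kk_le_card _).trans
      (hk.trans_le (pow_le_fb p k)))).trans (fb_mul _ _ _))
  set V := pCore p X with hV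
  have hV1 : V ≠ ⊥ := hF ▸ Fit.fitting_ne_bot
  let Y := (pPrimeCore p (X ⧸ V)).comap (QuotientGroup.mk' V)
  by_cases hY : Y = ⊤
  swap
  · have h1 := ih _ (hn ▸ Fit.card_lt_card_of_ne_top hY) Y rfl (by
      rw [Fit.pPrimeCore_eq_subgroupOf, h0, bot_subgroupOf])
    have hVY : V ≤ Y := Fit.le_comap_mk' _ _
    have h2 := ih _ (hn ▸ Fit.card_quotient_lt fun e => hV1 (eq_bot_iff.2 (e ▸ hVY))) (X ⧸ Y) rfl (by
      have : ∀ (W : Subgroup (X ⧸ V)) [W.Normal], W = pPrimeCore p _ →
          pPrimeCore p ((X ⧸ V) ⧸ W) = ⊥ := by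
        rintro _ _ rfl
        exact Fit.pPrimeCore_quotient_pPrimeCore _ _
      rw [← Fit.map_pPrimeCore_equiv (QuotientGroup.quotientQuotientEquivQuotient V Y hVY),
        this _ (Fit.map_comap_mk' _ _), Subgroup.map_bot])
    rw [fact_quot p Y]
    exact (kk_le_quot Y).trans ((Nat.mul_le_mul h2 h1).trans (fb_mul _ _ _))
  have hVp := Fit.isPGroup_pCore p X
  obtain ⟨k, hk⟩ := IsPGroup.iff_card.1 hVp
  have hi : V.index.Coprime p := Fit.pPrimeCore_eq_top_iff.1 (by
    rw [← Fit.map_comap_mk' V (pPrimeCore p _), show comap _ _ = ⊤ from hY]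
    exact map_top_of_surjective _ (QuotientGroup.mk'_surjective V))
  have hc : (Nat.card V).Coprime V.index := hk ▸ (hi.symm.pow_left k)
  obtain ⟨H, hH⟩ := exists_right_complement'_of_coprime hc
  haveI : IsMulCommutative V := by
    have h1 := Fit.map_frattini_subtype_le V
    rw [hΦ, le_bot_iff, map_eq_bot_iff_of_injective _ V.subtype_injective] at h1
    have h2 := Fit.commutator_le_frattini hVp
    rw [h1, le_bot_iff, commutator_eq_bot_iff_center_eq_top] at h2
    exact ⟨⟨fun a b => (mem_center_iff.1 (h2 ▸ mem_top b) a)⟩⟩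
  have h1 := kk_semidirect V H hH (hH.symm.index_eq_card ▸ hc)
  have h2 := thmM hp h5 _ H (Additive V) ((cjRep V).comp H.subtype) (fun g hg => Subtype.ext
    (disjoint_def.1 hH.disjoint (Fit.centralizer_pCore_le hp h0
      ((ker_cjRep V).le (mem_ker_iff.2 hg))) g.2)) (fun U hU => by
      obtain ⟨U', h3, h4⟩ := ss_cjRep V (compl_of_frattini hΦ V) U fun g u hu => by
        obtain ⟨⟨v, h⟩, rfl⟩ := hH.2 g
        rw [rp_mul, mem_ker_iff.1 ((ker_cjRep V).ge (le_centralizer V v.2))]
        exact hU h u hu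
      exact ⟨U', fun g => h3 g, h4⟩) ((one_lt_card_iff_ne_bot V).2 hV1) le_rfl ⟨k, hk⟩
  have h3 := Nat.le_of_mul_le_mul_right (h1.trans h2) Nat.card_pos
  change _ ≤ 3 ^ (Nat.log p (Nat.card V) - 1) * Nat.card V at h3
  rw [hk, Nat.log_pow hp.one_lt] at h3
  rw [fact_quot p V, hk, hp.factorization_pow, Finsupp.single_eq_same]
  exact h3.trans (fb_mono hp.pos le_add_self)

end Cfsg.Agent.KR
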