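import Mathlib

/-! Counting commuting pairs: Nagao's inequality and refinements. -/

set_option autoImplicit false
set_option linter.unusedSectionVars false
set_option linter.style.haveILetI false

namespace Cfsg.Agent.KR

open Subgroup

variable {G H : Type*} [Group G] [Group H]

/-- The number of commuting pairs in `X × Y`. -/
noncomputable def pr (X Y : Set G) : ℕ :=
  Nat.card {p : G × G // p.1 ∈ X ∧ p.2 ∈ Y ∧ Commute p.1 p.2}

/-- The class number. -/
noncomputable abbrev kk (G : Type*) [Group G] : ℕ := Nat.card (ConjClasses G)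

theorem card_le_mul_of_fiber {A B : Type*} [Finite A] [Finite B] (φ : A → B) {c : ℕ}
    (h : ∀ b, Nat.card {a // φ a = b} ≤ c) : Nat.card A ≤ Nat.card B * c := by
  haveI := Fintype.ofFinite B
  rw [← Nat.card_congr (Equiv.sigmaFiberEquiv φ), Nat.card_sigma, Nat.card_eq_fintype_card]
  exact (Finset.sum_le_card_nsmul _ _ _ fun b _ => h b).trans_eq (by simp)

theorem pr_comm (X Y : Set G) : pr X Y = pr Y X :=
  Nat.card_congr ((Equiv.prodComm G G).subtypeEquiv fun _ =>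
    ⟨fun h => ⟨h.2.1, h.1, h.2.2.symm⟩, fun h => ⟨h.2.1, h.1, h.2.2.symm⟩⟩)

variable [Finite G] [Finite H]

theorem pr_univ : pr (Set.univ : Set G) Set.univ = kk G * Nat.card G := by
  rw [← card_comm_eq_card_conjClasses_mul_card]
  exact Nat.card_congr (Equiv.subtypeEquivRight fun p => by simp)

theorem pr_mono {X Y X' Y' : Set G} (hX : X ⊆ X') (hY : Y ⊆ Y') : pr X Y ≤ pr X' Y' :=
  Nat.card_le_card_of_injective (fun p => ⟨p.1, hX p.2.1, hY p.2.2.1, p.2.2.2⟩)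
    fun _ _ h => Subtype.ext (congrArg Subtype.val h :)

theorem pr_le_of_lift (f : H →* G) (hf : Function.Injective f) {X Y : Set G} {X' Y' : Set H}
    (hX : X ⊆ f '' X') (hY : Y ⊆ f '' Y') : pr X Y ≤ pr X' Y' := by
  refine Nat.card_le_card_of_surjective
    (α := {p : H × H // (p.1 ∈ X' ∧ p.2 ∈ Y' ∧ Commute p.1 p.2) ∧ f p.1 ∈ X ∧ f p.2 ∈ Y})
    (fun p => ⟨(f p.1.1, f p.1.2), p.2.2.1, p.2.2.2, p.2.1.2.2.map f⟩) ?_ |>.trans ?_
  · rintro ⟨⟨x, y⟩, hx, hy, hc⟩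
    obtain ⟨a, ha, rfl⟩ := hX hx
    obtain ⟨b, hb, rfl⟩ := hY hy
    exact ⟨⟨(a, b), ⟨ha, hb, (commute_map_iff hf).1 hc⟩, hx, hy⟩, rfl⟩
  · exact Nat.card_le_card_of_injective (fun p => ⟨p.1, p.2.1⟩)
      fun _ _ h => Subtype.ext (congrArg Subtype.val h :)

theorem pr_le_right (X : Set G) {Y : Set G} {N : Subgroup G}
    (h : ∀ y ∈ Y, ∀ y' ∈ Y, y⁻¹ * y' ∈ N) : pr X Y ≤ pr X N := by
  have : ∀ x : G, ∃ s, ∀ y ∈ Y, Commute x y → s ∈ Y ∧ Commute x s := fun x => by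
    by_cases e : ∃ y ∈ Y, Commute x y
    · obtain ⟨y, h1, h2⟩ := e
      exact ⟨y, fun _ _ _ => ⟨h1, h2⟩⟩
    · exact ⟨1, fun y h1 h2 => (e ⟨y, h1, h2⟩).elim⟩
  choose s hs using this
  refine Nat.card_le_card_of_injective (fun p => ⟨(p.1.1, (s p.1.1)⁻¹ * p.1.2), p.2.1,
    h _ (hs _ _ p.2.2.1 p.2.2.2).1 _ p.2.2.1,
    (hs _ _ p.2.2.1 p.2.2.2).2.inv_right.mul_right p.2.2.2⟩) ?_
  rintro ⟨⟨a, b⟩, _⟩ ⟨⟨a', b'⟩, _⟩ e
  simp only [Subtype.mk.injEq, Prod.mk.injEq] at e ⊢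
  obtain ⟨rfl, e⟩ := e
  exact ⟨rfl, mul_left_cancel e⟩

theorem pr_le_both {X Y : Set G} {N : Subgroup G} (hX : ∀ y ∈ X, ∀ y' ∈ X, y⁻¹ * y' ∈ N)
    (hY : ∀ y ∈ Y, ∀ y' ∈ Y, y⁻¹ * y' ∈ N) : pr X Y ≤ pr (N : Set G) N :=
  (pr_le_right X hY).trans (by rw [pr_comm]; exact pr_le_right _ hX)

theorem pr_le_mul (f : G →* H) {X Y : Set G} {X' Y' : Set H} (hX : Set.MapsTo f X X')
    (hY : Set.MapsTo f Y Y') {c : ℕ}
    (h : ∀ a ∈ X', ∀ b, pr (X ∩ f ⁻¹' {a}) (Y ∩ f ⁻¹' {b}) ≤ c) : pr X Y ≤ pr X' Y' * c := by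
  refine card_le_mul_of_fiber (fun p => ⟨(f p.1.1, f p.1.2), hX p.2.1, hY p.2.2.1,
    p.2.2.2.map f⟩) fun b => le_trans ?_ (h b.1.1 b.2.1 b.1.2)
  refine Nat.card_le_card_of_injective (fun p => ⟨p.1.1, ⟨p.1.2.1,
    (congrArg (fun t => t.1.1) p.2 :)⟩, ⟨p.1.2.2.1, (congrArg (fun t => t.1.2) p.2 :)⟩,
    p.1.2.2.2⟩) ?_
  exact fun _ _ h => Subtype.ext (Subtype.ext (congrArg Subtype.val h :))

theorem pr_prod (f : G →* H) (S : Subgroup G) {T : Set H} (h : Set.MapsTo f S T) :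
    pr (S : Set G) S ≤ pr T T * pr ((S ⊓ f.ker : Subgroup G) : Set G) (S ⊓ f.ker : Subgroup G) := by
  have key : ∀ a, ∀ y ∈ (S : Set G) ∩ f ⁻¹' {a}, ∀ y' ∈ (S : Set G) ∩ f ⁻¹' {a},
      y⁻¹ * y' ∈ S ⊓ f.ker := fun a y hy y' hy' =>
    ⟨S.mul_mem (S.inv_mem hy.1) hy'.1, by
      have e1 : f y = a := hy.2
      have e2 : f y' = a := hy'.2
      simp [e1, e2]⟩
  exact pr_le_mul f h h fun a _ b => pr_le_both (key a) (key b)

theorem pr_subgroup (S : Subgroup G) : pr (S : Set G) S = kk S * Nat.card S := by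
  rw [← pr_univ]
  refine le_antisymm (pr_le_of_lift S.subtype S.subtype_injective (fun x hx => ⟨⟨x, hx⟩, trivial, rfl⟩)
    fun x hx => ⟨⟨x, hx⟩, trivial, rfl⟩) ?_
  exact Nat.card_le_card_of_injective (fun p => ⟨(p.1.1, p.1.2), p.1.1.2, p.1.2.2,
    p.2.2.2.map S.subtype⟩) fun a b h => Subtype.ext (Prod.ext
      (Subtype.ext (congrArg (fun t => t.1.1) h)) (Subtype.ext (congrArg (fun t => t.1.2) h)))

theorem card_eq_mul_ker (f : G →* H) (hf : Function.Surjective f) :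
    Nat.card G = Nat.card H * Nat.card f.ker := by
  rw [← Nat.card_congr (QuotientGroup.quotientKerEquivOfSurjective f hf).toEquiv,
    ← Subgroup.card_eq_card_quotient_mul_card_subgroup]

/-- **Nagao's inequality**. -/
theorem kk_le_mul (f : G →* H) (hf : Function.Surjective f) : kk G ≤ kk H * kk f.ker := by
  have := pr_prod f ⊤ (T := Set.univ) fun _ _ => trivial
  rw [top_inf_eq, pr_subgroup f.ker, coe_top, pr_univ, pr_univ, card_eq_mul_ker f hf] at this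
  refine Nat.le_of_mul_le_mul_right (this.trans_eq (by ring))
    (Nat.mul_pos (Nat.card_pos (α := H)) (Nat.card_pos (α := f.ker)))

theorem kk_le_card (G : Type*) [Group G] [Finite G] : kk G ≤ Nat.card G :=
  Nat.card_le_card_of_surjective _ ConjClasses.mk_surjective

theorem kk_pos (G : Type*) [Group G] [Finite G] : 0 < kk G := Nat.card_pos

theorem kk_le_of_surjective (f : G →* H) (hf : Function.Surjective f) : kk H ≤ kk G :=
  Nat.card_le_card_of_surjective _ (ConjClasses.map_surjective hf)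

theorem kk_congr (e : G ≃* H) : kk G = kk H :=
  le_antisymm (kk_le_of_surjective e.symm.toMonoidHom e.symm.surjective)
    (kk_le_of_surjective e.toMonoidHom e.surjective)

theorem kk_le_quot (N : Subgroup G) [N.Normal] : kk G ≤ kk (G ⧸ N) * kk N := by
  have := kk_le_mul (QuotientGroup.mk' N) (QuotientGroup.mk'_surjective N)
  rwa [QuotientGroup.ker_mk'] at this

theorem pr_split (W Y : Set G) : pr Set.univ Y = pr W Y + pr Wᶜ Y := by
  classical
  rw [pr, pr, pr, ← Nat.card_sum]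
  refine Nat.card_congr ((Equiv.sumCompl fun p : {p : G × G //
    p.1 ∈ Set.univ ∧ p.2 ∈ Y ∧ Commute p.1 p.2} => p.1.1 ∈ W).symm.trans (Equiv.sumCongr
    ⟨fun p => ⟨p.1.1, p.2, p.1.2.2⟩, fun p => ⟨⟨p.1, trivial, p.2.2⟩, p.2.1⟩, fun _ => rfl,
      fun _ => rfl⟩
    ⟨fun p => ⟨p.1.1, p.2, p.1.2.2⟩, fun p => ⟨⟨p.1, trivial, p.2.2⟩, p.2.1⟩, fun _ => rfl,
      fun _ => rfl⟩))

theorem pr_le_card_mul (X Y : Set G) {c : ℕ}
    (h : ∀ x ∈ X, Nat.card {y // y ∈ Y ∧ Commute x y} ≤ c) : pr X Y ≤ Nat.card X * c := by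
  refine card_le_mul_of_fiber (fun p => (⟨p.1.1, p.2.1⟩ : X)) fun b => le_trans ?_ (h b b.2)
  refine Nat.card_le_card_of_injective (fun p => ⟨p.1.1.2, p.1.2.2.1, by
    have e : p.1.1.1 = b := congrArg Subtype.val p.2
    exact e ▸ p.1.2.2.2⟩) fun p q e => Subtype.ext (Subtype.ext (Prod.ext ?_ ?_))
  · exact (congrArg Subtype.val p.2 :).trans (congrArg Subtype.val q.2 :).symm
  · exact congrArg Subtype.val e

theorem pr_one_univ : pr ({1} : Set G) Set.univ = Nat.card G :=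
  Nat.card_congr ⟨fun p => p.1.2, fun y => ⟨(1, y), rfl, trivial, Commute.one_left y⟩,
    fun p => Subtype.ext (Prod.ext (Eq.symm p.2.1) rfl), fun _ => rfl⟩

theorem card_fiber_le (f : G →* H) (a : H) : Nat.card (f ⁻¹' {a}) ≤ Nat.card f.ker := by
  by_cases h : (f ⁻¹' {a}).Nonempty
  · obtain ⟨x, hx⟩ := h
    have hx' : f x = a := hx
    refine Nat.card_le_card_of_injective (fun y => ⟨x⁻¹ * y, by
      have : f y = a := y.2
      simp [this, hx']⟩) fun y z e => Subtype.ext (mul_left_cancel (congrArg Subtype.val e :))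
  · rw [Set.not_nonempty_iff_eq_empty.1 h]; simp

/-- The refined inequality for an abelian kernel. -/
theorem kk_refined (f : G →* H) (hf : Function.Surjective f) {c : ℕ}
    (hc : ∀ x, x ∉ f.ker → Nat.card {y // y ∈ (f.ker : Set G) ∧ Commute x y} ≤ c) :
    kk G * Nat.card H + c ≤ Nat.card f.ker + c * Nat.card H * kk H := by
  have h1 := pr_split (f.ker : Set G) Set.univ
  have h2 := pr_split (f.ker : Set G) f.ker
  have h3 : pr (f.ker : Set G) f.ker ≤ Nat.card f.ker * Nat.card f.ker :=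
    pr_le_card_mul _ _ fun x _ => Nat.card_le_card_of_injective (fun y => (⟨y.1, y.2.1⟩ : f.ker))
      fun _ _ e => Subtype.ext (congrArg Subtype.val e :)
  have h4 := pr_le_card_mul (f.ker : Set G)ᶜ f.ker hc
  have h5 : pr (f.ker : Set G)ᶜ Set.univ ≤ pr ({1} : Set H)ᶜ Set.univ * (Nat.card f.ker * c) := by
    refine pr_le_mul f (X := (f.ker : Set G)ᶜ) (X' := ({1} : Set H)ᶜ) (fun x hx => hx)
      (Set.mapsTo_univ _ _) fun a _ b => ?_
    refine (pr_le_right _ (N := f.ker) fun y hy y' hy' => ?_).trans ?_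
    · have e1 : f y = b := hy.2
      have e2 : f y' = b := hy'.2
      simp [e1, e2]
    · refine (pr_le_card_mul _ _ fun x hx => hc x hx.1).trans (Nat.mul_le_mul_right _ ?_)
      exact (Nat.card_mono (Set.toFinite _) Set.inter_subset_right).trans (card_fiber_le f a)
  have h6 := pr_split ({1} : Set H) Set.univ
  have h7 : Nat.card f.ker + Nat.card ((f.ker : Set G)ᶜ : Set G) = Nat.card G := by
    classical
    rw [← Nat.card_sum]
    exact Nat.card_congr (Equiv.sumCompl fun x => x ∈ f.ker)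
  rw [pr_univ, pr_comm (f.ker : Set G), card_eq_mul_ker f hf] at h1
  rw [pr_univ, pr_one_univ] at h6
  rw [card_eq_mul_ker f hf] at h7
  have hw : 0 < Nat.card f.ker := Nat.card_pos
  refine Nat.le_of_mul_le_mul_right ?_ hw
  generalize Nat.card f.ker = w at *
  generalize Nat.card H = h at *
  have e1 : c * h * kk H * w = (h + pr ({1} : Set H)ᶜ Set.univ) * (w * c) := by
    rw [← h6]; ring
  have e2 : h * (w * c) = w * c + Nat.card ((f.ker : Set G)ᶜ : Set G) * c := by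
    rw [← mul_assoc, ← h7]; ring
  nlinarith

theorem sum_pr_single [Fintype G] (Y : Set G) :
    ∑ g : G, Nat.card {y // y ∈ Y ∧ Commute g y} = pr Set.univ Y := by
  rw [← Nat.card_sigma]
  exact Nat.card_congr ⟨fun p => ⟨(p.1, p.2.1), trivial, p.2.2⟩, fun p => ⟨p.1.1, p.1.2, p.2.2⟩,
    fun _ => rfl, fun _ => rfl⟩

end Cfsg.Agent.KR
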