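import Cfsg.Agent.Lib.KR.Red

/-! The field generated by an abelian normal subgroup of a primitive linear group. -/

set_option autoImplicit false
set_option linter.unusedSectionVars false
set_option linter.style.haveILetI false

namespace Cfsg.Agent.KR

open Subgroup Module

universe u

variable {G V : Type u} [Group G] [Finite G] [AddCommGroup V] [Finite V] {ρ : Rp G V}

/-- Fixed points of an element. -/
def fix (ρ : Rp G V) (g : G) : Submodule ℤ V := LinearMap.eqLocus (ρ g) LinearMap.id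

theorem mem_fix {g : G} {v : V} : v ∈ fix ρ g ↔ ρ g v = v := Iff.rfl

theorem Inv.map_eq {U : Submodule ℤ V} (h : Inv ρ U) (g : G) : U.map (ρ g) = U :=
  le_antisymm (by rintro _ ⟨u, hu, rfl⟩; exact h g u hu)
    fun u hu => ⟨_, h g⁻¹ u hu, rp_self_inv ρ g u⟩

theorem irr_of_not_dec (hs : SS ρ) (hd : ¬ Dec ρ) {U : Submodule ℤ V} (hU : Inv ρ U)
    (h0 : U ≠ ⊥) : U = ⊤ := by
  classical
  obtain ⟨W, hW, hc⟩ := hs U hU
  by_contra h1
  have hW0 : W ≠ ⊥ := fun e => h1 (by have := hc.sup_eq_top; rwa [e, sup_bot_eq] at this)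
  have hne : U ≠ W := fun e => h0 (by have := hc.inf_eq_bot; rwa [← e, inf_idem] at this)
  refine hd ⟨{U, W}, (Finset.card_pair hne).ge, ?_, (Finset.supIndep_pair hne).2 hc.disjoint,
    by simpa using hc.sup_eq_top, fun g => ?_⟩
  · simp [h0, hW0]
  · simp [hU.map_eq, hW.map_eq]

/-- The ring generated by a subgroup. -/
def rng (ρ : Rp G V) (Z : Subgroup G) : Subring (End ℤ V) := Subring.closure (ρ '' Z)

theorem rng_conj {Z : Subgroup G} [hZ : Z.Normal] (g : G) {r : End ℤ V} (hr : r ∈ rng ρ Z) :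
    ρ g * r * ρ g⁻¹ ∈ rng ρ Z := by
  have e : ρ g⁻¹ * ρ g = 1 := by rw [← map_mul, inv_mul_cancel, map_one]
  induction hr using Subring.closure_induction with
  | mem x hx =>
    obtain ⟨z, hz, rfl⟩ := hx
    exact Subring.subset_closure ⟨_, hZ.conj_mem z hz g, by simp⟩
  | zero => simp
  | one => rw [mul_one, ← map_mul, mul_inv_cancel, map_one]; exact one_mem _
  | add x y _ _ hx hy => rw [mul_add, add_mul]; exact add_mem hx hy
  | neg x _ hx => rw [mul_neg, neg_mul]; exact neg_mem hx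
  | mul x y _ _ hx hy =>
    have : ρ g * (x * y) * ρ g⁻¹ = ρ g * x * ρ g⁻¹ * (ρ g * y * ρ g⁻¹) := by
      simp only [mul_assoc]
      rw [← mul_assoc (ρ g⁻¹), e, one_mul]
    rw [this]; exact mul_mem hx hy

theorem rng_comm_of {Z : Subgroup G} {s : End ℤ V} (hs : ∀ z ∈ Z, s * ρ z = ρ z * s)
    {r : End ℤ V} (hr : r ∈ rng ρ Z) : s * r = r * s := by
  induction hr using Subring.closure_induction with
  | mem x hx => obtain ⟨z, hz, rfl⟩ := hx; exact hs z hz
  | zero => simp
  | one => simp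
  | add x y _ _ hx hy => rw [mul_add, add_mul, hx, hy]
  | neg x _ hx => rw [mul_neg, neg_mul, hx]
  | mul x y _ _ hx hy => rw [← mul_assoc, hx, mul_assoc, hy, mul_assoc]

theorem rng_comm_cent {Z : Subgroup G} {y : G} (hy : y ∈ centralizer (Z : Set G))
    {r : End ℤ V} (hr : r ∈ rng ρ Z) : ρ y * r = r * ρ y :=
  rng_comm_of (fun z hz => by rw [← map_mul, ← map_mul, hy z hz]) hr

theorem rng_comm {Z : Subgroup G} (hZ : Z ≤ centralizer (Z : Set G)) {r s : End ℤ V}
    (hr : r ∈ rng ρ Z) (hs : s ∈ rng ρ Z) : r * s = s * r :=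
  rng_comm_of (fun _ hz => (rng_comm_cent (hZ hz) hr).symm) hs

theorem rng_dom [Nontrivial V] (hs : SS ρ) (hd : ¬ Dec ρ) {Z : Subgroup G} [Z.Normal]
    (hZ : Z ≤ centralizer (Z : Set G)) {r : End ℤ V} (hr : r ∈ rng ρ Z) {v : V} (hv : v ≠ 0)
    (h : r v = 0) : r = 0 := by
  classical
  let cl : V → Submodule ℤ V := fun v => ⨅ r ∈ {r | r ∈ rng ρ Z ∧ r v = 0}, LinearMap.ker r
  have hcl : ∀ v w, w ∈ cl v ↔ ∀ r ∈ rng ρ Z, r v = 0 → r w = 0 := fun v w => by simp [cl]
  have hself : ∀ v, v ∈ cl v := fun v => (hcl v v).2 fun _ _ h => h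
  have hle : ∀ v w, w ∈ cl v → cl w ≤ cl v := fun v w h x hx =>
    (hcl v x).2 fun r hr e => (hcl w x).1 hx r hr ((hcl v w).1 h r hr e)
  have hmap : ∀ g v, (cl v).map (ρ g) = cl (ρ g v) := by
    have : ∀ g v, ∀ w ∈ cl v, ρ g w ∈ cl (ρ g v) := fun g v w hw => (hcl _ _).2 fun r hr e => by
      have := (hcl _ _).1 hw _ (rng_conj g⁻¹ hr) (by simp [e])
      simpa using rp_eq_zero ρ g⁻¹ (by simpa using this)
    refine fun g v => le_antisymm (by rintro _ ⟨w, hw, rfl⟩; exact this g v w hw) fun w hw => ?_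
    exact ⟨ρ g⁻¹ w, by simpa [rp_inv_self] using this g⁻¹ _ w hw, rp_self_inv ρ g w⟩
  let P : Submodule ℤ V → Prop := fun U => ∃ v ≠ 0, U = cl v
  have hP : ∀ g U, P U → P (U.map (ρ g)) := by
    rintro g _ ⟨v, hv, rfl⟩
    exact ⟨ρ g v, fun e => hv (rp_eq_zero ρ g e), hmap g v⟩
  have hP0 : ∀ U, P U → U ≠ ⊥ := by
    rintro _ ⟨v, hv, rfl⟩ e
    exact hv ((Submodule.eq_bot_iff _).1 e v (hself v))
  have hmin : ∀ U, Minimal P U → ∀ w ∈ U, w ≠ 0 → U = cl w := fun U hU w hw h0 => by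
    obtain ⟨v, -, rfl⟩ := hU.1
    exact le_antisymm (hU.2 ⟨w, h0, rfl⟩ (hle v w hw)) (hle v w hw)
  let s := (Set.toFinite {U | Minimal P U}).toFinset
  have hs' : ∀ U, U ∈ s ↔ Minimal P U := fun U => Set.Finite.mem_toFinset _
  obtain ⟨U, hU⟩ := exists_minimal_of_wellFoundedLT P ⟨_, v, hv, rfl⟩
  have htop : s.sup id = ⊤ := by
    refine irr_of_not_dec hs hd ?_ fun e => hP0 U hU.1
      (le_bot_iff.1 (e ▸ Finset.le_sup (f := id) ((hs' U).2 hU)))
    rw [Finset.sup_id_eq_sSup]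
    exact inv_sSup fun g W hW => (hs' _).2 (minimal_map ρ hP g ((hs' W).1 hW))
  have hind : s.SupIndep id := by
    refine supIndep_of_sep s id fun i hi j hj hij => ?_
    have hi' := (hs' i).1 hi
    obtain ⟨x, hx, rfl⟩ := hi'.1
    obtain ⟨y, hy, rfl⟩ := ((hs' j).1 hj).1
    obtain ⟨t, ht, t1, t2⟩ : ∃ t ∈ rng ρ Z, t y = 0 ∧ t x ≠ 0 := by
      by_contra hne
      push Not at hne
      exact hij (hmin _ ((hs' _).1 hj) x ((hcl y x).2 hne) hx).symm
    refine ⟨t.toAddMonoidHom, fun l hl u hu => ?_, fun u hu => (hcl y u).1 hu t ht t1,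
      fun u hu e => ?_⟩
    · obtain ⟨z, -, rfl⟩ := ((hs' l).1 hl).1
      refine (hcl z _).2 fun r hr e => ?_
      change (r * t) u = 0
      rw [rng_comm hZ hr ht, End.mul_apply, (hcl z u).1 hu r hr e, map_zero]
    · by_contra h0
      exact t2 ((hcl u x).1 (hmin _ hi' u hu h0 ▸ hself x) t ht e)
  have hone : s = {U} := by
    by_contra hne
    refine hd ⟨s, ?_, fun W hW => hP0 W ((hs' W).1 hW).1, hind, htop,
      fun g W hW => (hs' _).2 (minimal_map ρ hP g ((hs' W).1 hW))⟩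
    by_contra hlt
    exact hne (Finset.eq_singleton_iff_unique_mem.2 ⟨(hs' U).2 hU, fun W hW =>
      Finset.card_le_one.1 (by omega) W hW U ((hs' U).2 hU)⟩)
  rw [hone, Finset.sup_singleton, id] at htop
  ext w
  have := hmin U hU v (htop ▸ Submodule.mem_top) hv
  exact (hcl v w).1 (this ▸ htop ▸ Submodule.mem_top) r hr h

theorem exists_field [Nontrivial V] (hs : SS ρ) (hd : ¬ Dec ρ) {Z : Subgroup G} [Z.Normal]
    (hZ : Z ≤ centralizer (Z : Set G)) : ∃ (K : Type u) (_ : Field K) (_ : Finite K)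
      (ι : K →+* End ℤ V), Function.Injective ι ∧ ∀ r, r ∈ rng ρ Z ↔ ∃ c, ι c = r := by
  haveI : Finite (End ℤ V) := Finite.of_injective _ DFunLike.coe_injective
  obtain ⟨v, hv⟩ := exists_ne (0 : V)
  have hF : IsField (rng ρ Z) := by
    refine ⟨⟨0, 1, fun e => hv ?_⟩, fun a b => Subtype.ext (rng_comm hZ a.2 b.2), fun {a} ha => ?_⟩
    · exact (congrArg (fun r : rng ρ Z => r.1 v) e).symm
    · refine Finite.surjective_of_injective (f := fun b => a * b) (fun b c e => ?_) 1
      refine Subtype.ext (LinearMap.ext fun w => sub_eq_zero.1 ?_)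
      by_contra h0
      refine ha (Subtype.ext (rng_dom hs hd hZ a.2 h0 ?_))
      rw [map_sub, sub_eq_zero]
      exact congrArg (fun r : rng ρ Z => r.1 w) e
  exact ⟨rng ρ Z, hF.toField, inferInstance, (rng ρ Z).subtype, Subtype.val_injective,
    fun r => ⟨fun h => ⟨⟨r, h⟩, rfl⟩, fun ⟨c, h⟩ => h ▸ c.2⟩⟩

theorem card_fixed_pow {E : Type*} [Field E] [Finite E] (Γ : Subgroup (RingAut E)) :
    Nat.card (FixedPoints.subfield Γ E) ^ Nat.card Γ = Nat.card E := by
  haveI : Finite (RingAut E) := Finite.of_injective _ DFunLike.coe_injective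
  haveI := Fintype.ofFinite Γ
  rw [Module.natCard_eq_pow_finrank (K := FixedPoints.subfield Γ E) (V := E),
    FixedPoints.finrank_eq_card, Nat.card_eq_fintype_card (α := Γ)]

theorem linIndep_of_chars {K M ι B : Type*} [Field K] [AddCommGroup M] [Module K M] [Finite ι]
    (T : B → M →ₗ[K] M) (χ : ι → B → K) (v : ι → M) (hv : ∀ i, v i ≠ 0)
    (hT : ∀ i b, T b (v i) = χ i b • v i) (hχ : Function.Injective χ) : LinearIndependent K v := by
  haveI := Fintype.ofFinite ι
  refine iSupIndep.linearIndependent (fun i => K ∙ v i) (iSupIndep_iff_supIndep_univ.2 ?_)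
    (fun i => Submodule.mem_span_singleton_self _) hv
  refine supIndep_of_sep _ _ fun i _ j _ hij => ?_
  obtain ⟨b, hb⟩ := Function.ne_iff.1 (hχ.ne hij)
  have key : ∀ l (c : K), (T b - χ j b • LinearMap.id : M →ₗ[K] M) (c • v l) =
      (c * (χ l b - χ j b)) • v l := fun l c => by
    simp [hT, smul_sub, smul_smul, sub_mul, sub_smul, mul_comm c]
  refine ⟨(T b - χ j b • LinearMap.id : M →ₗ[K] M).toAddMonoidHom, fun l _ u hu => ?_,
    fun u hu => ?_, fun u hu e => ?_⟩
  · obtain ⟨c, rfl⟩ := Submodule.mem_span_singleton.1 hu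
    exact Submodule.mem_span_singleton.2 ⟨_, (key l c).symm⟩
  · obtain ⟨c, rfl⟩ := Submodule.mem_span_singleton.1 hu
    exact (key j c).trans (by simp)
  · obtain ⟨c, rfl⟩ := Submodule.mem_span_singleton.1 hu
    have := (key i c).symm.trans e
    rw [smul_eq_zero, mul_eq_zero, sub_eq_zero] at this
    rcases this with (h | h) | h
    exacts [by simp [h], (hb h).elim, (hv i h).elim]

theorem field_data [Nontrivial V] (hf : Fa ρ) (hs : SS ρ) (hd : ¬ Dec ρ) {Z : Subgroup G}
    [hN : Z.Normal] (hZ : Z ≤ centralizer (Z : Set G)) : ∃ q m s : ℕ, Nat.card V = q ^ m ∧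
      s ^ (centralizer (Z : Set G)).index = q ∧ 2 ≤ s ∧ Nat.card Z ∣ q - 1 ∧
      (∀ z ∈ Z, ∀ v, ρ z v = v → z = 1 ∨ v = 0) ∧
      (∀ g ∈ centralizer (Z : Set G), ∃ d, Nat.card (fix ρ g) = q ^ d) ∧
      (∃ (K : Type u) (_ : Field K) (θ : Z →* K), Function.Injective θ) ∧
      ∀ A : Subgroup G, A ≤ centralizer (Z : Set G) → (∀ a ∈ A, ∀ b ∈ A, a * b * a⁻¹ * b⁻¹ ∈ Z) →
        A ⊓ centralizer (A : Set G) ≤ Z → Z.relIndex A ≤ m ^ 2 := by
  obtain ⟨K, _, _, ι, hι, hR⟩ := exists_field hs hd hZ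
  letI : Module K V := Module.compHom V ι
  have hsm : ∀ (c : K) (v : V), c • v = ι c v := fun _ _ => rfl
  have hinj : Function.Injective ρ := (injective_iff_map_eq_one ρ).2 fun g hg =>
    hf g fun v => by rw [hg]; rfl
  have hmem : ∀ c, ι c ∈ rng ρ Z := fun c => (hR _).2 ⟨c, rfl⟩
  choose t ht using fun z : Z => (hR (ρ z)).1 (Subring.subset_closure ⟨z, z.2, rfl⟩)
  let θ : Z →* K := ⟨⟨t, hι (by simp [ht])⟩, fun a b => hι (by simp [ht])⟩
  have hθ : Function.Injective θ := fun a b e => Subtype.ext (hinj (by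
    rw [← ht, ← ht]; exact congrArg ι e))
  choose γ hγ using fun g c => (hR _).1 (rng_conj (ρ := ρ) (Z := Z) g (hmem c))
  have e1 : ∀ g, ρ g⁻¹ * ρ g = 1 := fun g => by rw [← map_mul, inv_mul_cancel, map_one]
  have γm : ∀ g k c, γ (g * k) c = γ g (γ k c) := fun g k c => hι (by simp [hγ, mul_assoc])
  have γo : ∀ c, γ 1 c = c := fun c => hι (by simp [hγ])
  let φ : G →* RingAut K :=
    { toFun := fun g =>
        { toFun := γ g
          invFun := γ g⁻¹
          left_inv := fun x => by rw [← γm, inv_mul_cancel, γo]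
          right_inv := fun x => by rw [← γm, mul_inv_cancel, γo]
          map_mul' := fun x y => hι (by
            simp only [hγ, map_mul, mul_assoc]
            rw [← mul_assoc (ρ g⁻¹), e1, one_mul])
          map_add' := fun x y => hι (by simp [hγ, mul_add, add_mul]) }
      map_one' := RingEquiv.ext γo
      map_mul' := fun g k => RingEquiv.ext (γm g k) }
  have hker : φ.ker = centralizer (Z : Set G) := by
    ext g
    constructor
    · intro h z hz
      have : γ g (t ⟨z, hz⟩) = t ⟨z, hz⟩ := RingEquiv.congr_fun (MonoidHom.mem_ker.1 h) _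
      have := congrArg ι this
      rw [hγ, ht, ← map_mul, ← map_mul] at this
      exact (mul_inv_eq_iff_eq_mul.1 (hinj this)).symm
    · intro h
      refine RingEquiv.ext fun c => hι ?_
      change ι (γ g c) = ι c
      rw [hγ, rng_comm_cent h (hmem c), mul_assoc, ← map_mul, mul_inv_cancel, map_one, mul_one]
  have hlin : ∀ g ∈ centralizer (Z : Set G), ∀ (c : K) v, ρ g (c • v) = c • ρ g v :=
    fun g hg c v => LinearMap.congr_fun (rng_comm_cent hg (hmem c)) v
  refine ⟨Nat.card K, finrank K V, _, natCard_eq_pow_finrank, by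
    rw [← hker, index_ker]; exact card_fixed_pow φ.range, Finite.one_lt_card, ?_, ?_, ?_,
    ⟨K, _, θ, hθ⟩, ?_⟩
  · rw [← Nat.card_units]
    exact card_dvd_of_injective θ.toHomUnits fun a b e => hθ (congrArg Units.val e)
  · intro z hz v e
    have : (t ⟨z, hz⟩ - 1) • v = 0 := by rw [sub_smul, one_smul, hsm, ht, e, sub_self]
    exact (smul_eq_zero.1 this).imp_left fun h => congrArg Subtype.val
      (hθ ((sub_eq_zero.1 h).trans θ.map_one.symm))
  · intro g hg
    let U : Submodule K V := ⟨(fix ρ g).toAddSubmonoid, fun c v (hv : ρ g v = v) =>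
      show ρ g (c • v) = c • v by rw [hlin g hg, hv]⟩
    exact ⟨finrank K U, natCard_eq_pow_finrank (K := K) (V := U)⟩
  · intro A hA hc hAZ
    let l : A → V →ₗ[K] V := fun a => ⟨(ρ a).toAddHom, hlin a (hA a.2)⟩
    have hl : ∀ a v, l a v = ρ a v := fun _ _ => rfl
    haveI := Fintype.ofFinite (A ⧸ Z.subgroupOf A)
    have := linIndep_of_chars (K := K) (ι := A ⧸ Z.subgroupOf A)
      (fun b : A => LinearMap.mulLeftRight K (l b, l b⁻¹))
      (fun i b => θ ⟨_, hc b b.2 i.out i.out.2⟩) (fun i => l i.out) (fun i e => by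
        obtain ⟨v, hv⟩ := exists_ne (0 : V)
        exact hv (rp_eq_zero ρ _ (LinearMap.congr_fun e v))) (fun i b => by
        ext v
        change ρ b (ρ i.out (ρ (b : G)⁻¹ v)) = ι (t _) (ρ i.out v)
        rw [ht, ← rp_mul, ← rp_mul, ← rp_mul]
        simp) fun i j e => by
        rw [← i.out_eq, ← j.out_eq]
        refine QuotientGroup.eq.2 (hAZ ⟨(i.out⁻¹ * j.out).2, fun b hb => ?_⟩)
        have := congrArg Subtype.val (hθ (congrFun e ⟨b, hb⟩⁻¹))
        simp only [coe_inv, inv_inv, mul_assoc, mul_right_inj] at this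
        change b * ((i.out : G)⁻¹ * j.out) = (i.out : G)⁻¹ * j.out * b
        calc b * ((i.out : G)⁻¹ * j.out)
            = (i.out : G)⁻¹ * (i.out * (b * (i.out : G)⁻¹)) * j.out := by group
          _ = _ := by rw [this]; group
    have := this.fintype_card_le_finrank
    rwa [finrank_linearMap, ← Nat.card_eq_fintype_card, ← sq] at this

end Cfsg.Agent.KR
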