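import Cfsg.Agent.Lib.KR.Prim

/-! Class numbers of completely reducible solvable linear groups. -/

set_option autoImplicit false
set_option linter.unusedSectionVars false
set_option linter.style.haveILetI false

namespace Cfsg.Agent.KR

universe u

/-- The bound for class numbers of linear groups. -/
def bN (x : ℕ) : ℕ := if x = 4 then 3 else if x = 8 then 9 else if x = 16 then 27 else x ^ 2 / 3

theorem bN_le (x : ℕ) : 3 * bN x ≤ x ^ 2 := by
  unfold bN
  split_ifs with h1 h2 h3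
  exacts [by simp [h1], by simp [h2], by simp [h3], Nat.mul_div_le _ _]

theorem le_bN {x K : ℕ} (h1 : x ≠ 4) (h2 : x ≠ 8) (h3 : x ≠ 16) (h : 3 * K ≤ x ^ 2) : K ≤ bN x := by
  rw [bN, if_neg h1, if_neg h2, if_neg h3]
  omega

theorem bN_mul (x y : ℕ) (hx : 2 ≤ x) (hy : 2 ≤ y) : 3 * bN x * bN y ≤ bN (x * y) := by
  by_cases h : x * y ≤ 16
  · have : x ≤ 8 := by nlinarith
    have : y ≤ 8 := by nlinarith
    interval_cases x <;> interval_cases y <;> first | omega | decide
  · refine le_bN (by omega) (by omega) (by omega) ?_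
    have := Nat.mul_le_mul (bN_le x) (bN_le y)
    rw [mul_pow]; linarith

theorem two_mul_le_of_dvd {d N : ℕ} (h : d ∣ N) (h' : d < N) : d ≤ N / 2 := by
  obtain ⟨k, rfl⟩ := h
  have : 2 ≤ k := by
    by_contra h2
    interval_cases k <;> omega
  exact (Nat.le_div_iff_mul_le two_pos).2 (Nat.mul_le_mul_left _ this)

theorem xb {e x : ℕ} (he : 2 ≤ e) (h : ∀ c ≤ e ^ 2, (∀ d, d ∣ e ^ 2 → d < e ^ 2 → d ≤ c) →
    x + c ≤ e ^ 2 + c * bN (e ^ 2)) :
    (e = 2 → x ≤ 8) ∧ (e = 3 → x ≤ 87) ∧ (e = 4 → x ≤ 224) ∧ 6 * x ≤ e ^ 6 + 3 * e ^ 2 := by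
  have h1 := h (e ^ 2 / 2) (Nat.div_le_self _ _) fun _ => two_mul_le_of_dvd
  refine ⟨?_, ?_, ?_, ?_⟩
  · rintro rfl
    norm_num [bN] at h1; omega
  · rintro rfl
    have := h 3 (by norm_num) fun d h1 h2 => by
      norm_num at h2
      interval_cases d <;> simp_all
    norm_num [bN] at this; omega
  · rintro rfl
    norm_num [bN] at h1; omega
  · have h2 := bN_le (e ^ 2)
    have h3 : 4 ≤ e ^ 2 := by nlinarith
    rw [show e ^ 6 = (e ^ 2) ^ 3 by ring]
    generalize e ^ 2 = E at *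
    generalize bN E = b at *
    obtain ⟨c, hc | hc⟩ := Nat.even_or_odd' E
    · rw [show E / 2 = c by omega] at h1
      subst hc
      nlinarith [Nat.mul_le_mul_left c h2]
    · rw [show E / 2 = c by omega] at h1
      subst hc
      nlinarith [Nat.mul_le_mul_left c h2]

theorem poly_step {m : ℕ} (hm : 5 ≤ m) :
    (m + 1) ^ 6 + 3 * (m + 1) ^ 2 ≤ 3 * (m ^ 6 + 3 * m ^ 2) := by
  have h1 := Nat.pow_le_pow_left (show 5 * (m + 1) ≤ 6 * m by omega) 6
  have h2 := Nat.pow_le_pow_left (show 5 * (m + 1) ≤ 6 * m by omega) 2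
  rw [mul_pow, mul_pow] at h1 h2
  omega

theorem poly_le {m : ℕ} (hm : 5 ≤ m) : 16 * (m ^ 6 + 3 * m ^ 2) + 3750 ≤ 1250 * 3 ^ m := by
  induction m, hm using Nat.le_induction with
  | base => norm_num
  | succ m hm ih =>
    have := poly_step hm
    rw [pow_succ 3]; omega

theorem xb9 {e x : ℕ} (he : 2 ≤ e)
    (h : (e = 2 → x ≤ 8) ∧ (e = 3 → x ≤ 87) ∧ (e = 4 → x ≤ 224) ∧ 6 * x ≤ e ^ 6 + 3 * e ^ 2) :
    6 * x ≤ 9 ^ e ∧ 24 * x ≤ 16 ^ e := by
  rcases Nat.lt_or_ge e 5 with h5 | h5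
  · interval_cases e <;> omega
  · have h1 := poly_le h5
    have h2 : 243 * 3 ^ e ≤ 9 ^ e := by
      rw [show 9 = 3 * 3 from rfl, mul_pow]
      exact Nat.mul_le_mul_right _ (Nat.pow_le_pow_right (n := 3) (by norm_num) h5)
    have h3 : 1024 * 3 ^ e ≤ 16 ^ e := by
      rw [show 16 = 4 * 4 from rfl, mul_pow]
      exact Nat.mul_le_mul (Nat.pow_le_pow_right (n := 4) (by norm_num) h5)
        (Nat.pow_le_pow_left (by norm_num) _)
    omega

theorem numN {q m s k z e x K : ℕ} (h1 : s ^ k = q) (h2 : 2 ≤ s) (h3 : 1 ≤ k) (h4 : z ∣ q - 1)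
    (h6 : 1 ≤ e) (h7 : e ≤ m) (h8 : e ≠ 1 → ¬ e.Coprime z) (h9 : K ≤ k * z * x)
    (h10 : e = 1 → x = 1 ∧ ∀ c, (∀ d, d ∣ z → d < z → d ≤ c) → K * k + c ≤ z + c * k * k)
    (h11 : 2 ≤ e → 6 * x ≤ 9 ^ e ∧ 24 * x ≤ 16 ^ e) : K ≤ bN (q ^ m) := by
  have hk : 2 ^ k ≤ q := h1 ▸ Nat.pow_le_pow_left h2 k
  have hq : 2 ≤ q := (Nat.le_self_pow (by omega) 2).trans hk
  have hz : z ≤ q - 1 := Nat.le_of_dvd (by omega) h4
  have hkk : ∀ j, q < 2 ^ (j + 1) → k ≤ j := fun j hj =>
    Nat.lt_succ_iff.1 ((Nat.pow_lt_pow_iff_right one_lt_two).1 (hk.trans_lt hj))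
  have hmm : ∀ j, q ^ m < 2 ^ (j + 1) → m ≤ j := fun j hj => Nat.lt_succ_iff.1
    ((Nat.pow_lt_pow_iff_right one_lt_two).1 ((Nat.pow_le_pow_left hq m).trans_lt hj))
  have hqm : q ≤ q ^ m := Nat.le_self_pow (by omega) q
  have hq2 : q = 2 → K ≤ 1 := by
    rintro rfl
    obtain rfl : z = 1 := Nat.dvd_one.1 h4
    obtain rfl : e = 1 := by simpa using h8
    have := hkk 1 (by norm_num)
    rw [(h10 rfl).1] at h9
    omega
  have hm1 : ∀ c, m = 1 → (∀ d, d ∣ q - 1 → d < q - 1 → d ≤ c) → K * k + c ≤ z + c * k * k :=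
    fun c hm h => (h10 (by omega)).2 c fun d hd hd' => h d (hd.trans h4) (hd'.trans_le hz)
  by_cases c4 : q ^ m = 4
  · have := hmm 2 (by omega)
    have : q ≤ 4 := by omega
    rw [c4]
    change K ≤ 3
    interval_cases m <;> interval_cases q <;> try omega
    have := hm1 1 rfl fun d h h' => by interval_cases d <;> omega
    have := hkk 2 (by norm_num)
    interval_cases k <;> omega
  by_cases c8 : q ^ m = 8
  · have := hmm 3 (by omega)
    have : q ≤ 8 := by omega
    rw [c8]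
    change K ≤ 9
    interval_cases m <;> interval_cases q <;> try omega
    have := hm1 1 rfl fun d h h' => by interval_cases d <;> omega
    have := hkk 3 (by norm_num)
    interval_cases k <;> omega
  by_cases c16 : q ^ m = 16
  · have := hmm 4 (by omega)
    have : q ≤ 16 := by omega
    rw [c16]
    change K ≤ 27
    interval_cases m <;> interval_cases q <;> try omega
    · have := hm1 5 rfl fun d h h' => by interval_cases d <;> omega
      have := hkk 4 (by norm_num)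
      interval_cases k <;> omega
    · have := hkk 2 (by norm_num)
      obtain rfl : e = 1 := by
        by_contra h
        obtain rfl : e = 2 := by omega
        have := h8 h
        interval_cases z <;> first | omega | exact this (by decide)
      rw [(h10 rfl).1] at h9
      nlinarith
  refine le_bN c4 c8 c16 ?_
  by_cases he : e = 1
  · rw [(h10 he).1] at h9
    have h12 : K ≤ k * (q - 1) := by nlinarith
    by_cases q4 : q = 4
    · subst q4
      have : 4 ^ 2 ≤ 4 ^ m := Nat.pow_le_pow_right (by norm_num) (by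
        by_contra h
        obtain rfl : m = 1 := by omega
        simp at c4)
      have := hkk 2 (by norm_num)
      nlinarith
    refine le_trans ?_ (Nat.pow_le_pow_left hqm 2)
    rcases Nat.lt_or_ge q 9 with q9 | q9
    · have := hkk 1
      have := hkk 2
      have := hkk 3
      interval_cases q <;> omega
    · have : 3 * k ≤ q := by
        rcases Nat.lt_or_ge k 4 with k4 | k4
        · omega
        · refine le_trans ?_ hk
          clear * - k4
          induction k, k4 using Nat.le_induction with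
          | base => norm_num
          | succ k hk ih => rw [pow_succ]; omega
      have : k * (q - 1) ≤ k * q := Nat.mul_le_mul_left _ (Nat.sub_le _ _)
      nlinarith
  · obtain ⟨x1, x2⟩ := h11 (by omega)
    rw [← pow_mul, mul_comm m, pow_mul]
    refine le_trans ?_ (Nat.pow_le_pow_right (by positivity) h7)
    have hq3 : q ≠ 2 := by
      rintro rfl
      exact h8 he (by simp [Nat.dvd_one.1 h4])
    by_cases q3 : q = 3
    · subst q3
      have := hkk 1 (by norm_num)
      obtain rfl : k = 1 := by omega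
      have := Nat.mul_le_mul_right x hz
      rw [one_mul] at h9
      norm_num at this ⊢
      omega
    · obtain ⟨e, rfl⟩ := Nat.exists_eq_add_of_le' h6
      have h12 : 2 * k ≤ q := le_trans (by
        obtain ⟨k, rfl⟩ := Nat.exists_eq_add_of_le' h3
        have := Nat.lt_two_pow_self (n := k)
        rw [pow_succ]; omega) hk
      have h13 : 16 ^ e ≤ (q ^ 2) ^ e := Nat.pow_le_pow_left (by nlinarith [show 4 ≤ q by omega]) e
      have h14 := Nat.mul_le_mul h12 (hz.trans (Nat.sub_le q 1))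
      rw [pow_succ] at x2 ⊢
      have h15 := Nat.mul_le_mul h14 (show 3 * x ≤ 2 * (q ^ 2) ^ e by omega)
      nlinarith

theorem sq_lt_pow {q m e z : ℕ} (h4 : z ∣ q - 1) (hq : 2 ≤ q) (h7 : e ≤ m)
    (h8 : ¬ e.Coprime z) : e ^ 2 < q ^ m := by
  have hq3 : q ≠ 2 := by
    rintro rfl
    exact h8 (by simp [Nat.dvd_one.1 h4])
  refine lt_of_lt_of_le ?_ ((Nat.pow_le_pow_left (show 3 ≤ q by omega) e).trans
    (Nat.pow_le_pow_right (by omega) h7))
  clear * -
  induction e with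
  | zero => norm_num
  | succ e ih =>
    have := Nat.lt_pow_self (n := e) (show 1 < 3 by norm_num)
    rw [pow_succ 3]; nlinarith

theorem thmN (n : ℕ) : Bd.{u} True (fun _ => True) bN n := by
  induction n with
  | zero => intro G V _ _ _ _ _ ρ _ _ h1 h2; omega
  | succ n ih =>
    intro G V _ _ _ _ _ ρ hf hs h1 h2 _
    by_cases hd : Dec ρ
    · exact dec_step (fun _ _ _ => trivial) (fun x y hx hy _ => bN_mul x y hx hy) ih
        (pb_of (fun x _ => bN_le x) ih n le_rfl) ρ hf hs h2 trivial hd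
    haveI := Finite.one_lt_card_iff_nontrivial.1 h1
    obtain ⟨q, m, s, k, z, e, x, hV, a1, a2, a3, a4, -, a6, a7, a8, a9, a10, a11, -⟩ :=
      prim_data hf hs hd
    rw [TT_of_zero _ fun v _ h => h trivial, hV]
    refine Nat.mul_le_mul_right _ (numN a1 a2 a3 a4 a6 a7 a8 a9 a10 fun he =>
      xb9 he (xb he (a11 bN n ih he ?_)))
    have := sq_lt_pow a4 (a1 ▸ a2.trans (Nat.le_self_pow (by omega) s)) a7 (a8 (by omega))
    omega

theorem numM {q m z e x : ℕ} (hq : 5 ≤ q) (h4 : z ∣ q - 1) (h5 : 1 ≤ z) (h6 : 1 ≤ e) (h7 : e ≤ m)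
    (h8 : e ≠ 1 → ¬ e.Coprime z) (h9 : 1 ≤ x) (h10 : e = 1 → x = 1) (h11 : 2 ≤ e →
      (e = 2 → x ≤ 8) ∧ (e = 3 → x ≤ 87) ∧ (e = 4 → x ≤ 224) ∧ 6 * x ≤ e ^ 6 + 3 * e ^ 2) :
    ∃ L M, 0 < L ∧ (∀ d, 4 * d ≤ 3 * m → q ^ d ≤ L) ∧ L ^ 2 + q ^ m ≤ L * M + 2 * L ∧
      x * z ^ 2 + q ^ m + x * M ≤ z * (3 ^ (m - 1) * q ^ m) + 1 + M := by
  have hz : z ≤ q - 1 := Nat.le_of_dvd (by omega) h4
  have hp : ∀ {a b}, a ≤ b → q ^ a ≤ q ^ b := fun h => Nat.pow_le_pow_right (by omega) h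
  by_cases he : e = 1
  · refine ⟨q ^ m, q ^ m, by positivity, fun d hd => hp (by omega), by rw [sq]; omega, ?_⟩
    have h1 : q ≤ q ^ m := Nat.le_self_pow (by omega) q
    have h2 : q ^ m ≤ 3 ^ (m - 1) * q ^ m := Nat.le_mul_of_pos_left _ (by positivity)
    have h3 := Nat.mul_le_mul_left z h2
    obtain ⟨y, rfl⟩ := Nat.exists_eq_add_of_le' h5
    obtain ⟨w, hw⟩ := Nat.exists_eq_add_of_le (show y + 2 ≤ q ^ m by omega)
    rw [h10 he]
    nlinarith
  have hz2 : 2 ≤ z := by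
    by_contra h
    obtain rfl : z = 1 := by omega
    exact h8 he (by simp)
  obtain ⟨x1, x2, x3, x4⟩ := h11 (by omega)
  obtain ⟨r, rfl⟩ := Nat.exists_eq_add_of_le' hq
  obtain ⟨y, rfl⟩ := Nat.exists_eq_add_of_le' h9
  have key : ∀ M T Q : ℕ, 1 ≤ Q → 2 * (y + 1) * (r + 4) + Q + y * M ≤ 2 * T + 1 →
      (y + 1) * z ^ 2 + Q + (y + 1) * M ≤ z * T + 1 + M := fun M T Q h1 h => by
    obtain ⟨Q, rfl⟩ := Nat.exists_eq_add_of_le' h1
    have a1 := Nat.mul_le_mul_left z (show 2 * (y + 1) * (r + 4) + (Q + y * M) ≤ 2 * T by omega)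
    have a2 := Nat.mul_le_mul_right (Q + y * M) hz2
    have a3 := Nat.mul_le_mul_left ((y + 1) * z) (show z ≤ r + 4 from hz)
    nlinarith
  rcases Nat.lt_or_ge m 5 with m5 | m5
  · have m2 : 2 ≤ m := by omega
    interval_cases m
    · refine ⟨r + 5, 2 * r + 8, by positivity, fun d hd => (hp (show d ≤ 1 by omega)).trans_eq
        (pow_one _), by nlinarith, key _ _ _ (Nat.one_le_pow _ _ (by omega)) ?_⟩
      have : y ≤ 7 := by omega
      change _ ≤ 2 * (3 * _) + 1
      nlinarith [Nat.mul_le_mul_left r this]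
    · refine ⟨(r + 5) ^ 2, (r + 5) ^ 2 + r + 3, by positivity, fun d hd => hp (by omega),
        by nlinarith, key _ _ _ (Nat.one_le_pow _ _ (by omega)) ?_⟩
      change _ ≤ 2 * (9 * _) + 1
      by_cases e3 : e = 3
      · subst e3
        have h3 : 3 ∣ r + 4 := (by
          by_contra h
          exact h8 he ((Nat.Prime.coprime_iff_not_dvd Nat.prime_three).2 h) : 3 ∣ z).trans h4
        obtain ⟨t, rfl⟩ := Nat.exists_eq_add_of_le' (show 2 ≤ r by omega)
        have : y ≤ 86 := by omega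
        nlinarith [Nat.mul_le_mul_left t this, Nat.mul_le_mul_left (t ^ 2) this, Nat.zero_le (t ^ 3)]
      · have : y ≤ 7 := by omega
        nlinarith [Nat.mul_le_mul_left r this, Nat.mul_le_mul_left (r ^ 2) this, Nat.zero_le (r ^ 3)]
    · refine ⟨(r + 5) ^ 3, (r + 5) ^ 3 + r + 3, by positivity, fun d hd => hp (by omega),
        by nlinarith, key _ _ _ (Nat.one_le_pow _ _ (by omega)) ?_⟩
      have : y ≤ 223 := by omega
      change _ ≤ 2 * (27 * _) + 1
      nlinarith [Nat.mul_le_mul_left r this, Nat.mul_le_mul_left (r ^ 2) this,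
        Nat.mul_le_mul_left (r ^ 3) this, Nat.zero_le (r ^ 4)]
  · obtain ⟨j, rfl⟩ := Nat.exists_eq_add_of_le' m5
    have a1 := poly_le m5
    have a2 : 6 * (y + 1) ≤ (j + 5) ^ 6 + 3 * (j + 5) ^ 2 := x4.trans
      (Nat.add_le_add (Nat.pow_le_pow_left h7 _) (Nat.mul_le_mul_left _ (Nat.pow_le_pow_left h7 _)))
    have a3 : 96 * (y + 1) + 3750 ≤ 3750 * 3 ^ (j + 4) := by
      rw [pow_succ 3] at a1; omega
    refine ⟨(r + 5) ^ (j + 3), (r + 5) ^ (j + 3) + r ^ 2 + 10 * r + 23, by positivity,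
      fun d hd => hp (by omega), ?_, key _ _ _ (Nat.one_le_pow _ _ (by omega)) ?_⟩
    · rw [show j + 5 = j + 3 + 2 from rfl, pow_add _ (j + 3)]
      nlinarith
    · have b : ∀ a, a ≤ j + 5 → 5 ^ (j + 5 - a) * (r + 5) ^ a ≤ (r + 5) ^ (j + 5) := fun a ha => by
        conv_rhs => rw [← Nat.sub_add_cancel ha, pow_add]
        exact Nat.mul_le_mul_right _ (Nat.pow_le_pow_left (by omega) _)
      have b1 := b (j + 3) (by omega)
      have b2 := (Nat.mul_le_mul_right _ (Nat.pow_le_pow_right (n := 5) (by norm_num)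
        (show 3 ≤ j + 5 - 2 by omega))).trans (b 2 (by omega))
      have b3 := (Nat.mul_le_mul_right _ (Nat.pow_le_pow_right (n := 5) (by norm_num)
        (show 4 ≤ j + 5 - 1 by omega))).trans (b 1 (by omega))
      rw [show j + 5 - (j + 3) = 2 by omega] at b1
      rw [show j + 5 - 1 = j + 4 from rfl]
      generalize (r + 5) ^ (j + 5) = Q at *
      generalize (r + 5) ^ (j + 3) = L at *
      have c1 : 625 * (2 * (r + 4) + (L + r ^ 2 + 10 * r + 23)) ≤ 32 * Q := by nlinarith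
      have c2 := Nat.mul_le_mul_left (y + 1) c1
      have c3 := Nat.mul_le_mul_left Q a3
      nlinarith

theorem thmM {p : ℕ} (hp : p.Prime) (h5 : 5 ≤ p) (n : ℕ) :
    Bd.{u} False (fun x => ∃ n, x = p ^ n) (fun x => 3 ^ (Nat.log p x - 1) * x) n := by
  have hP : ∀ x y, (∃ n, x * y = p ^ n) → ∃ n, y = p ^ n := fun x y ⟨n, h⟩ =>
    ((Nat.dvd_prime_pow hp).1 ⟨x, h.symm.trans (mul_comm _ _)⟩).imp fun _ h => h.2
  induction n with
  | zero => intro G V _ _ _ _ _ ρ _ _ h1 h2; omega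
  | succ n ih =>
    intro G V _ _ _ _ _ ρ hf hs h1 h2 hPV
    by_cases hd : Dec ρ
    · refine dec_step hP (fun x y hx hy h => ?_) ih
        (pb_of (fun x _ => bN_le x) (thmN n) n le_rfl) ρ hf hs h2 hPV hd
      obtain ⟨b, rfl⟩ := hP _ _ h
      obtain ⟨a, rfl⟩ := hP _ _ (mul_comm x _ ▸ h)
      rcases a with _ | a
      · simp at hx
      rcases b with _ | b
      · simp at hy
      rw [← pow_add]
      simp only [Nat.log_pow hp.one_lt, Nat.add_sub_cancel]
      rw [show a + 1 + (b + 1) - 1 = a + b + 1 by omega]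
      exact le_of_eq (by ring)
    haveI := Finite.one_lt_card_iff_nontrivial.1 h1
    obtain ⟨q, m, s, k, z, e, x, hV, a1, a2, a3, a4, a5, a6, a7, a8, a9, a10, a11, a12⟩ :=
      prim_data hf hs hd
    obtain ⟨N, hN⟩ := hPV
    obtain ⟨j, -, rfl⟩ := (Nat.dvd_prime_pow hp).1 (show s ∣ p ^ N by
      rw [← hN, hV, ← a1, ← pow_mul]; exact dvd_pow_self _ (Nat.mul_pos a3 (a6.trans a7)).ne')
    have hj : 1 ≤ j := Nat.pos_of_ne_zero fun h => by simp [h] at a2
    have hq : 5 ≤ q := by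
      rw [← a1, ← pow_mul]
      exact h5.trans (Nat.le_self_pow (by positivity) p)
    obtain ⟨L, M, b1, b2, b3, b4⟩ := numM hq a4 a5 a6 a7 a8
      (Nat.pos_of_ne_zero fun h => by simpa [h, (kk_pos G).ne'] using a9) (fun h => (a10 h).1)
      fun he => xb he (a11 bN _ (thmN _) he le_rfl)
    have b5 := a12 L M b1 b2 b3
    have b6 : k * 3 ^ (m - 1) ≤ 3 ^ (Nat.log p (q ^ m) - 1) := by
      rw [← a1, ← pow_mul, ← pow_mul, Nat.log_pow hp.one_lt]
      obtain ⟨k, rfl⟩ := Nat.exists_eq_add_of_le' a3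
      have c1 := Nat.lt_pow_self (n := k) (show 1 < 3 by norm_num)
      refine (Nat.mul_le_mul_right _ c1).trans ?_
      rw [← pow_add]
      have c2 := Nat.mul_le_mul_right ((k + 1) * m) hj
      have c3 := Nat.mul_le_mul_left k (a6.trans a7)
      refine Nat.pow_le_pow_right (by norm_num) (Nat.le_sub_one_of_lt ?_)
      have : m - 1 < m := by omega
      nlinarith
    refine Nat.le_of_mul_le_mul_left ?_ a5
    have b7 := Nat.mul_le_mul_right (Nat.card G) (Nat.mul_le_mul_left k b4)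
    have b8 := Nat.mul_le_mul_right (z * q ^ m * Nat.card G) b6
    simp only [hV]
    nlinarith

end Cfsg.Agent.KR
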