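import Cfsg.Agent.Lib.KR.Ov
import Cfsg.Agent.Lib.Block.Misc
import Cfsg.Agent.S0961

/-! The number of characters in a block of a solvable group. -/

set_option autoImplicit false
set_option linter.unusedSectionVars false
set_option linter.style.haveILetI false

namespace Cfsg.Agent.KR

open Subgroup Cfsg Cfsg.Agent.Char Cfsg.Agent.Block Cfsg.Agent.Cover
open scoped ComplexConjugate

universe u

section

variable {G : Type*} [Group G] {p : ℕ}

theorem ev_zreg_inner [Fintype G] (θ η : G → ℂ) : ev θ (zreg p η) =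
    Nat.card G * classInner θ fun g => if p ∣ orderOf g then 0 else η g := by
  rw [ev_zreg, classInner, mul_inv_cancel_left₀ (card_ne_zero_complex G)]
  exact Finset.sum_congr rfl fun g _ => by split_ifs <;> simp

theorem brauer_feit [Finite G] [hp : Fact p.Prime]
    (h : centralizer (pCore p G : Set G) ≤ pCore p G) :
    4 * kk G ≤ (p ^ (Nat.card G).factorization p) ^ 2 + 4 := by
  classical
  haveI := Fintype.ofFinite G
  obtain ⟨M, hM⟩ := exists_isPModular p
  haveI := hM.2.1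
  haveI := charP_res hM
  have h1 := S0961.result p (irrOne G)
  have hP : 0 < p ^ (Nat.card G).factorization p := pow_pos hp.out.pos _
  generalize p ^ (Nat.card G).factorization p = P at h1 hP ⊢
  set θ := fun x : G => if p ∣ orderOf x then 0 else (P : ℂ) * (irrOne G).1 x with hθ
  choose m hm using fun χ : IrrCharacter G => exists_int_inner (isGen_of_isIrr χ.2) h1
  have h2 : ∀ χ, 1 ≤ m χ ^ 2 := fun χ => by
    have a1 := (lam_zreg_ne_zero_iff (p := p) (isPBlock_blockOf (M := M) χ) (mem_blockOf_self χ)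
      (irrOne G)).2 ⟨sameBlock_of_centralizer_le p (Fit.isPGroup_pCore p G) h _ _, height_one⟩
    rw [lam_zreg _ (isChar_irr _)] at a1
    have a2 := mt (om_eq_zero_iff χ _).2 (ne_zero_of_red_ne_zero a1)
    rw [ev_zreg_inner] at a2
    have a3 : θ = (P : ℂ) • fun g => if p ∣ orderOf g then 0 else (irrOne G).1 g := by
      ext g
      simp [hθ]
    refine (one_le_sq_iff_one_le_abs _).2 (Int.one_le_abs fun e => ?_)
    have a4 := hm χ
    rw [a3, Char.inner_smul_right, e] at a4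
    exact mul_ne_zero (Nat.cast_ne_zero.2 hP.ne') (right_ne_zero_of_mul a2) (by simpa using a4)
  have h3 : ∑ χ, m χ ^ 2 = P * m (irrOne G) := by
    have a1 := inner_eq_sum_irr (isClass_of_isGen h1) θ
    have a2 : classInner θ θ = P * classInner (irrOne G).1 θ := by
      rw [← Char.inner_smul_left]
      simp only [classInner]
      congr 1
      exact Finset.sum_congr rfl fun g _ => by simp only [hθ]; split_ifs <;> simp
    simp only [inner_comm_of_isGen h1 (isGen_of_isIrr (Subtype.prop _)), hm, a2] at a1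
    simp only [sq]
    exact_mod_cast a1.symm
  have h4 := Finset.card_nsmul_le_sum (Finset.univ.erase (irrOne G)) _ _ fun χ _ => h2 χ
  rw [← Finset.add_sum_erase _ _ (Finset.mem_univ (irrOne G))] at h3
  have h5 := Finset.card_erase_add_one (Finset.mem_univ (irrOne G))
  rw [Finset.card_univ, ← Nat.card_eq_fintype_card, card_irr_eq_card_conjClasses] at h5
  rw [nsmul_one] at h4
  zify at h5 ⊢
  nlinarith [sq_nonneg ((P : ℤ) - 2 * m (irrOne G))]

theorem clifford_inj [Fintype G] (N : Subgroup G) [N.Normal] [Fintype N] {θ : N → ℂ}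
    (hθ : IsIrrCharacter N θ) [Fintype (Ind.inertia N θ)] {ψ η : IrrCharacter (Ind.inertia N θ)}
    (h1 : classInner (fun n : N => ψ.1 ⟨n, Ind.le_inertia N (Ind.cf_of_isIrr hθ) n.2⟩) θ ≠ 0)
    (h2 : classInner (fun n : N => η.1 ⟨n, Ind.le_inertia N (Ind.cf_of_isIrr hθ) n.2⟩) θ ≠ 0)
    {χ : IrrCharacter G} (h3 : χ.1 = indFun _ ψ.1) (h4 : classInner (fun n : N => χ.1 n) θ ≠ 0)
    (h5 : classInner (fun t : Ind.inertia N θ => χ.1 t) η.1 ≠ 0) : η = ψ := by
  by_contra hne
  have hNT := Ind.le_inertia N (Ind.cf_of_isIrr hθ)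
  have a1 := Ind.isChar_sub_of_inner_ne_zero (isChar_restrict (isChar_irr χ) _) ψ.2 (by
    rw [← Ind.frobenius' _ _ (isClass_irr χ), ← h3, inner_self_of_isIrr χ.2]
    exact one_ne_zero)
  refine inner_comp_ne_zero a1 η.2 (by
    rwa [Char.inner_sub_left, inner_eq_zero_of_isIrr ψ.2 η.2 fun e => hne (Subtype.ext e.symm),
      sub_zero]) (inclusion hNT) (isChar_of_isIrr hθ) h2 ?_
  have a2 := Ind.clifford_deg N χ.2 hθ h4
  have a3 : ψ.1 1 = _ * θ 1 := congrFun (Ind.clifford_inv_sub N _ hNT ψ.2 hθ h1 le_rfl) 1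
  conv_lhs at a2 => rw [h3, Ind.indFun_one, a3, ← mul_assoc, mul_comm (_ : ℂ) (classInner _ _)]
  have a4 := mul_right_cancel₀ (Nat.cast_ne_zero.2 index_ne_zero_of_finite)
    (mul_right_cancel₀ (apply_one_ne_zero_of_isIrr hθ) a2)
  exact (Char.inner_sub_left _ _ _).trans (sub_eq_zero.2 a4.symm)

end

theorem thmK {p : ℕ} [hp : Fact p.Prime] (X : Type u) [Group X] [Finite X] [Group.IsSolvable X]
    (h : pPrimeCore p X = ⊥) : kk X ≤ fb p ((Nat.card X).factorization p) := by
  rcases Nat.lt_or_ge p 5 with h5 | h5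
  swap
  · exact thmK_big hp.out h5 _ X rfl h
  have h1 := brauer_feit (Fit.centralizer_pCore_le hp.out h)
  generalize (Nat.card X).factorization p = a at *
  rcases a with _ | a
  · simp only [pow_zero, fb] at *
    omega
  have h2 := hp.out.two_le
  have h3 : p ≠ 4 := fun e => absurd (e ▸ hp.out) (by decide)
  rw [fb, Nat.add_sub_cancel]
  have h4 := Nat.pow_le_pow_left (show 2 ≤ 3 by norm_num) a
  have h6 := Nat.one_le_two_pow (n := a)
  obtain rfl | rfl : p = 2 ∨ p = 3 := by omega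
  all_goals rw [pow_succ _ a] at h1 ⊢; nlinarith

theorem block_bound {M : Ideal AlgInt} [hM : M.IsMaximal] {p : ℕ} [hp : Fact p.Prime]
    [CharP (Res M) p] (n : ℕ) : ∀ (G : Type u) [Group G] [Finite G] [Group.IsSolvable G],
      Nat.card G = n → ∀ B : Set (IrrCharacter G), IsPBlock M B →
        B.ncard ≤ fb p (blockDefect p B) := by
  induction n using Nat.strong_induction_on with
  | _ n ih =>
  intro G _ _ _ hn B hB
  haveI := Fintype.ofFinite G
  set N := pPrimeCore p G with hN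
  haveI := Fintype.ofFinite N
  have hNp : ¬ p ∣ Nat.card N := Fit.not_dvd_card_pPrimeCore hp.out
  obtain ⟨χ0, h0, h0'⟩ := exists_height_zero p (IsPBlock.nonempty hB)
  obtain ⟨θ, hθ⟩ := exists_under N χ0
  have hov : ∀ χ ∈ B, Over N χ θ := fun χ hχ =>
    over_of_sameBlock_of_not_dvd N p hNp hθ (IsPBlock.sameBlock hB h0 hχ)
  by_cases hT : Ind.inertia N θ.1 = ⊤
  · have hinv : ∀ g, irrCj N g θ = θ := fun g => Subtype.ext ((Ind.mem_inertia N).1 (hT ▸ mem_top g))
    obtain ⟨χ1, a1, a2⟩ := exists_pprime hNp hinv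
    rw [full_of_pprime (IsPBlock.mem_of_sameBlock hB h0
      (same_of_over _ G rfl N rfl θ hinv _ _ hθ a1)) a2, fact_quot p N]
    refine le_trans ?_ ((card_over_le hinv).trans ((thmK _ (Fit.pPrimeCore_quotient_pPrimeCore p G)).trans
      (fb_mono hp.out.pos le_self_add)))
    exact Set.ncard_le_ncard (t := {χ | Over N χ θ}) hov
  set T := Ind.inertia N θ.1 with hT'
  haveI := Fintype.ofFinite T
  have hNT : N ≤ T := Ind.le_inertia N (isClass_irr θ)
  choose ψ a1 a2 a3 using fun χ : B =>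
    Ind.exists_indFun_inertia N χ.1.2 θ.2 ((over_iff N).1 (hov _ χ.2))
  let ψ0 : IrrCharacter T := ⟨_, a1 ⟨χ0, h0⟩⟩
  have b1 : ∀ χ : B, (⟨_, a1 χ⟩ : IrrCharacter T) ∈ blockOf M ψ0.1 := fun χ => by
    have c1 := (lam_zreg_ne_zero_iff (p := p) hB χ.2 χ0).2 ⟨h0, h0'⟩
    rw [lam_zreg _ (isChar_irr _)] at c1
    have c2 := mt (om_eq_zero_iff χ.1 _).2 (ne_zero_of_red_ne_zero c1)
    rw [ev_zreg_inner, a3 χ, Ind.frobenius _ _ (fun g x => by
      rw [isClass_irr χ0 g x, (MulAut.conj x).orderOf_eq g |>.symm]; rfl)] at c2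
    have c3 : ev (ψ χ) (zreg p fun t : T => χ0.1 t) ≠ 0 := by
      rw [ev_zreg_inner]
      simpa [Subgroup.orderOf_coe] using right_ne_zero_of_mul c2
    rw [eq_sum_inner_smul (isClass_restrict (isClass_irr χ0) T), zreg_sum_smul, map_sum] at c3
    obtain ⟨η, -, c4⟩ := Finset.exists_ne_zero_of_sum_ne_zero c3
    rw [map_smul, smul_eq_mul] at c4
    have c5 : SameBlock M (ψ χ) η.1 := by
      by_contra c5
      exact right_ne_zero_of_mul c4 ((om_eq_zero_iff ⟨_, a1 χ⟩ _).1 (om_zreg_eq_zero c5))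
    have c6 := over_of_sameBlock_of_not_dvd (N.subgroupOf T) p
      (by rwa [Fit.card_subgroupOf_of_le hNT]) (χ := ⟨_, a1 χ⟩) ((over_thK hNT).2 (a2 χ)) c5
    have c7 := clifford_inj N θ.2 (ψ := ψ0) (a2 _) ((over_thK hNT).1 c6) (a3 ⟨χ0, h0⟩)
      ((over_iff N).1 hθ) (by simpa using left_ne_zero_of_mul c4)
    exact sameBlock_symm (c7 ▸ c5)
  have b2 : B.ncard ≤ (blockOf M ψ0.1).ncard := Nat.card_le_card_of_injective
    (fun χ : B => (⟨_, b1 χ⟩ : blockOf M ψ0.1)) fun χ χ' e => Subtype.ext (Subtype.ext (by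
      rw [a3, a3, show ψ χ = ψ χ' from congrArg (·.1.1) e]))
  refine b2.trans ((ih _ (hn ▸ Fit.card_lt_card_of_ne_top hT) T rfl _ (isPBlock_blockOf ψ0)).trans
    (fb_mono hp.out.pos ?_))
  obtain ⟨D, hD⟩ := exists_defectGroup p (isPBlock_blockOf (M := M) ψ0)
  obtain ⟨E, hE, hle⟩ := Induces.exists_defectGroup_ge (f := T.subtype) (χ := χ0)
    (induces_iff.2 fun g => by
      rw [inducedCentralChar_eq_indFun, ← a3 ⟨χ0, h0⟩, sub_self]
      exact (locIdeal M).zero_mem) (isPBlock_blockOf ψ0) (mem_blockOf_self ψ0) hB h0 hD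
  have := card_le_of_le hle
  rwa [Fit.card_map_subtype, IsDefectGroup.card_eq (isPBlock_blockOf ψ0) hD,
    IsDefectGroup.card_eq hB hE, Nat.pow_le_pow_iff_right hp.out.one_lt] at this

end Cfsg.Agent.KR
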