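import Cfsg.Agent.Lib.KR.Big
import Cfsg.Agent.Lib.Cover.Quot
import Cfsg.Agent.Lib.Block.Lin
import Cfsg.Agent.Lib.Ind.CycExt
import Cfsg.Agent.Lib.Fit.Solvable
import Cfsg.Agent.S0970

/-! Characters over an invariant character of the `p'`-core of a solvable group. -/

set_option autoImplicit false
set_option linter.unusedSectionVars false
set_option linter.style.haveILetI false

namespace Cfsg.Agent.KR

open Subgroup Cfsg Cfsg.Agent.Char Cfsg.Agent.Block Cfsg.Agent.Cover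

universe u

section

variable {G : Type*} [Group G] [Finite G] {N : Subgroup G} [hN : N.Normal]

/-- A character of `N`, viewed inside an overgroup `K`. -/
def thK {K : Subgroup G} (h : N ≤ K) (θ : IrrCharacter N) : IrrCharacter (N.subgroupOf K) :=
  haveI := Fintype.ofFinite G
  ⟨fun x => θ.1 (subgroupOfEquivOfLe h x), Ind.isIrr_comp_equiv θ.2 _⟩

theorem inv_thK {K : Subgroup G} (h : N ≤ K) {θ : IrrCharacter N}
    (hinv : ∀ g ∈ K, irrCj N g θ = θ) (g : K) : irrCj (N.subgroupOf K) g (thK h θ) = thK h θ :=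
  Subtype.ext (funext fun n => congrFun (congrArg Subtype.val (hinv g g.2)) (subgroupOfEquivOfLe h n))

theorem over_thK {K : Subgroup G} (h : N ≤ K) [Fintype N] {θ : IrrCharacter N}
    {η : IrrCharacter K} : Over (N.subgroupOf K) η (thK h θ) ↔
      classInner (fun n : N => η.1 ⟨n, h n.2⟩) θ.1 ≠ 0 := by
  haveI := Fintype.ofFinite (N.subgroupOf K)
  rw [over_iff, ← Ind.inner_comp_equiv (subgroupOfEquivOfLe h)]
  rfl

theorem over_sub {K : Subgroup G} (h : N ≤ K) {θ : IrrCharacter N} (hinv : ∀ g, irrCj N g θ = θ)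
    {χ : IrrCharacter G} {η : IrrCharacter K} (h1 : Over N χ θ) (h2 : Over K χ η) :
    Over (N.subgroupOf K) η (thK h θ) := by
  haveI := Fintype.ofFinite G
  haveI := Fintype.ofFinite N
  haveI := Fintype.ofFinite K
  haveI := Fintype.ofFinite (N.subgroupOf K)
  obtain ⟨ξ, hξ⟩ := exists_under (N.subgroupOf K) η
  have h3 := inner_comp_ne_zero (isChar_restrict (isChar_irr χ) K) η.2 ((over_iff K).1 h2)
    (N.subgroupOf K).subtype (isChar_irr ξ) ((over_iff _).1 hξ)
  have h4 := Ind.clifford_inv N χ.2 θ.2 ((over_iff N).1 h1)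
    fun g => congrArg Subtype.val (hinv g)
  have h5 : (fun k : N.subgroupOf K => χ.1 ((N.subgroupOf K).subtype k : K)) =
      classInner (fun n : N => χ.1 n) θ.1 • (thK h θ).1 :=
    funext fun k => congrFun h4 (subgroupOfEquivOfLe h k)
  rw [h5, Char.inner_smul_left] at h3
  rwa [Subtype.ext (eq_of_inner_ne_zero (thK h θ).2 ξ.2 (right_ne_zero_of_mul h3))]

theorem twist_of_over {x : G} (hx : N ⊔ zpowers x = ⊤) {χ ψ : IrrCharacter G} {η : IrrCharacter N}
    (h1 : Over N χ η) (h2 : Over N ψ η) : ∃ β, χ = Ind.twist hx β ψ := by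
  haveI := Fintype.ofFinite G
  haveI := Fintype.ofFinite N
  have h3 := Ind.inner_ne_zero_of_sub (isChar_irr η) (Ind.isChar_sub_of_inner_ne_zero
    (isChar_restrict (isChar_irr ψ) N) η.2 ((over_iff N).1 h2)) (isChar_restrict (isChar_irr χ) N)
    (Ind.inner_ne_zero_comm ((over_iff N).1 h1))
  rw [Ind.inner_res_eq_sum] at h3
  obtain ⟨β, -, h⟩ := Finset.exists_ne_zero_of_sum_ne_zero h3
  exact ⟨β, Subtype.ext
    (eq_of_inner_ne_zero (Ind.twist hx β ψ).2 χ.2 (right_ne_zero_of_mul h)).symm⟩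

theorem twist_mem {x : G} (hx : N ⊔ zpowers x = ⊤) (β : IrrCharacter (G ⧸ N))
    (ψ : IrrCharacter G) {n : G} (hn : n ∈ N) : (Ind.twist hx β ψ).1 n = ψ.1 n := by
  rw [Ind.twist_apply, (QuotientGroup.eq_one_iff n).2 hn,
    apply_one_eq_one_of_comm β.2 (Ind.quot_comm_of_sup hx), one_mul]

theorem coset_scalar {θ : IrrCharacter N} (hinv : ∀ g, irrCj N g θ = θ) (g : G) :
    ∃ t : N → ℂ, ∀ χ : IrrCharacter G, Over N χ θ → ∃ c, ∀ n : N, χ.1 (n * g) = c * t n := by
  let K := N ⊔ zpowers g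
  have hNK : N ≤ K := le_sup_left
  let x : K := ⟨g, mem_sup_right (mem_zpowers g)⟩
  haveI := Fintype.ofFinite K
  have hx : N.subgroupOf K ⊔ zpowers x = ⊤ := map_injective K.subtype_injective (by
    rw [Subgroup.map_sup, subgroupOf_map_subtype, MonoidHom.map_zpowers, ← MonoidHom.range_eq_map,
      range_subtype, inf_eq_left.2 hNK]
    rfl)
  obtain ⟨ψ, hψ⟩ := Ind.exists_extension_of_cyclic hx (thK hNK θ).2
    (congrArg Subtype.val (inv_thK hNK (fun g _ => hinv g) x))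
  have hψ' : Over (N.subgroupOf K) ψ (thK hNK θ) := by
    haveI := Fintype.ofFinite (N.subgroupOf K)
    rw [over_iff, funext hψ, inner_self_of_isIrr (thK hNK θ).2]
    exact one_ne_zero
  refine ⟨fun n => ψ.1 (⟨n, hNK n.2⟩ * x), fun χ hχ => ?_⟩
  have key : ∀ η : IrrCharacter K, ∃ c, ∀ n : N, classInner (fun k : K => χ.1 k) η.1 *
      η.1 (⟨n, hNK n.2⟩ * x) = c * ψ.1 (⟨n, hNK n.2⟩ * x) := fun η => by
    by_cases h : classInner (fun k : K => χ.1 k) η.1 = 0
    · exact ⟨0, fun n => by rw [h, zero_mul, zero_mul]⟩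
    · obtain ⟨β, rfl⟩ := twist_of_over hx (over_sub hNK hinv hχ ((over_iff K).2 h)) hψ'
      refine ⟨classInner (fun k : K => χ.1 k) (Ind.twist hx β ψ).1 * β.1 x, fun n => ?_⟩
      rw [Ind.twist_apply, QuotientGroup.mk_mul, (QuotientGroup.eq_one_iff _).2 (by exact n.2),
        one_mul, mul_assoc]
  choose c hc using key
  refine ⟨∑ η, c η, fun n => ?_⟩
  rw [Finset.sum_mul, ← Finset.sum_congr rfl fun η _ => hc η n]
  exact apply_eq_sum_inner_mul (isClass_restrict (isClass_irr χ) K) (⟨n, hNK n.2⟩ * x)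

theorem card_over_le {θ : IrrCharacter N} (hinv : ∀ g, irrCj N g θ = θ) :
    Nat.card {χ : IrrCharacter G // Over N χ θ} ≤ kk (G ⧸ N) := by
  haveI := Fintype.ofFinite (ConjClasses (G ⧸ N))
  haveI := Fintype.ofFinite {χ : IrrCharacter G // Over N χ θ}
  choose t c hc using coset_scalar hinv
  let r : ConjClasses (G ⧸ N) → G := fun C => (crep C).out
  have : ∀ x : G, ∃ (y : G) (n : N), y * x * y⁻¹ = n * r (ConjClasses.mk x) := fun x => by
    obtain ⟨y, hy⟩ := isConj_iff.1 (isConj_crep (x : G ⧸ N))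
    obtain ⟨y, rfl⟩ := QuotientGroup.mk_surjective y
    refine ⟨y, ⟨y * x * y⁻¹ * (r (ConjClasses.mk x))⁻¹, ?_⟩, by simp⟩
    rw [← QuotientGroup.eq_one_iff]
    simp [r, hy]
  choose y n hy using this
  have h1 : LinearIndependent ℂ fun (χ : {χ : IrrCharacter G // Over N χ θ}) C =>
      c (r C) χ.1 χ.2 := by
    refine LinearIndependent.of_comp (LinearMap.pi fun x : G =>
      t (r (ConjClasses.mk x)) (n x) • LinearMap.proj (ConjClasses.mk (x : G ⧸ N))) ?_
    refine (congrArg (fun v : _ → G → ℂ => LinearIndependent ℂ v) ?_).mp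
      (linearIndependent_irr.comp _ (Subtype.val_injective (p := fun χ => Over N χ θ)))
    ext χ x
    simp [← isClass_irr χ.1 x (y x), hy, hc _ _ χ.2, mul_comm]
  have := h1.fintype_card_le_finrank
  rwa [Module.finrank_fintype_fun_eq_card, ← Nat.card_eq_fintype_card,
    ← Nat.card_eq_fintype_card] at this

variable {M : Ideal AlgInt} [hM : M.IsMaximal] {p : ℕ} [hp : Fact p.Prime] [CharP (Res M) p]

theorem exists_pprime (hNp : ¬ p ∣ Nat.card N) {θ : IrrCharacter N} (hinv : ∀ g, irrCj N g θ = θ) :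
    ∃ χ : IrrCharacter G, Over N χ θ ∧ (charDegree χ.1).factorization p = 0 := by
  haveI := Fintype.ofFinite G
  haveI := Fintype.ofFinite N
  obtain ⟨M, hM⟩ := exists_isPModular p
  haveI := hM.2.1
  haveI := charP_res hM
  have h0 := Nat.factorization_eq_zero_of_not_dvd hNp
  have hb : blockOf M θ.1 = {θ} := blockOf_eq_singleton (p := p) (h0.trans_le (Nat.zero_le _))
  obtain ⟨χ, hχ, hmax⟩ := Set.exists_max_image {χ | Over N χ θ}
    (fun χ => blockDefect p (blockOf M χ.1)) (Set.toFinite _) (exists_over N θ)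
  obtain ⟨D, hD⟩ := exists_defectGroup p (isPBlock_blockOf (M := M) χ)
  have h1 := (S0970.result p M hM N _ (isPBlock_blockOf θ) (fun g ξ hξ ξ' h => by
    rw [hb] at hξ ⊢
    exact (Subtype.ext (funext fun n => by rw [h, hξ]; rfl)).trans (hinv g)) _ (isPBlock_blockOf χ)
    ⟨χ, mem_blockOf_self χ, θ, mem_blockOf_self θ, (over_iff N).1 hχ⟩ (by
      rintro B' hB' ⟨ψ, hψ, ξ, hξ, h⟩
      rw [hb] at hξ
      rw [IsPBlock.eq_blockOf hB' hψ]
      exact hmax ψ ((over_iff N).2 (hξ ▸ h))) D hD).2.2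
  obtain ⟨ψ, hψ, h2⟩ := exists_height_zero p ⟨χ, mem_blockOf_self (M := M) χ⟩
  have h3 := blockDefect_add hψ h2
  have h4 := factorization_card_eq_add (p := p) N
  exact ⟨ψ, over_of_sameBlock_of_not_dvd N p hNp hχ hψ, by omega⟩

theorem sameBlock_twist {x : G} (hx : N ⊔ zpowers x = ⊤) (β : IrrCharacter (G ⧸ N))
    {χ ψ : IrrCharacter G} (h : SameBlock M χ.1 ψ.1) :
    SameBlock M (Ind.twist hx β χ).1 (Ind.twist hx β ψ).1 := fun g => by
  have : ∀ χ : IrrCharacter G, centralChar (Ind.twist hx β χ).1 g = β.1 g * centralChar χ.1 g :=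
    fun χ => by rw [centralChar, centralChar, twist_mem hx β χ N.one_mem, Ind.twist_apply]; ring
  rw [this, this, ← mul_sub]
  exact mul_mem_locIdeal_left (irr_apply_mem_locRing β _) (h g)

theorem full_of_pprime {B : Set (IrrCharacter G)} {χ : IrrCharacter G} (hχ : χ ∈ B)
    (h : (charDegree χ.1).factorization p = 0) : blockDefect p B = (Nat.card G).factorization p :=
  le_antisymm blockDefect_le (by simpa [h] using le_blockDefect_add (p := p) hχ)

theorem lam_eq_zero_of_full [Group.IsSolvable G] (h0 : pPrimeCore p (G ⧸ N) = ⊥) {K : Subgroup G}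
    [hK : K.Normal] (hNK : N ≤ K) (hi : ¬ p ∣ K.index) {χ : IrrCharacter G}
    (h : blockDefect p (blockOf M χ.1) = (Nat.card G).factorization p) {g : G} (hg : g ∉ K) :
    lam M χ (classSum (Res M) g) = 0 := by
  by_contra hne
  obtain ⟨D, hD⟩ := exists_defectGroup p (isPBlock_blockOf (M := M) χ)
  obtain ⟨c, hc, hgc⟩ := IsDefectGroup.exists_isConj (isPBlock_blockOf χ) hD (mem_blockOf_self χ) hne
  have h1 := IsDefectGroup.card_eq (isPBlock_blockOf χ) hD
  rw [h] at h1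
  have h2 := Fit.pCore_le_sylow ((Sylow.ofCard D h1).mapSurjective (QuotientGroup.mk'_surjective N))
  have h3 : QuotientGroup.mk' N c ∈ pCore p (G ⧸ N) := Fit.centralizer_pCore_le hp.out h0
    fun y hy => by
      obtain ⟨y, hy', rfl⟩ := h2 hy
      rw [← map_mul, ← map_mul, hc y hy']
  haveI := hK.map _ (QuotientGroup.mk'_surjective N)
  have h4 : pCore p (G ⧸ N) ≤ K.map (QuotientGroup.mk' N) := Fit.le_of_coprime_index
    (Fit.coprime_card_of_isPGroup (Fit.isPGroup_pCore p _) (by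
      rw [Fit.index_map_mk' hNK]
      exact ((Nat.Prime.coprime_iff_not_dvd hp.out).2 hi).symm))
  have h5 : c ∈ (K.map (QuotientGroup.mk' N)).comap (QuotientGroup.mk' N) := h4 h3
  rw [Fit.comap_map_mk', sup_eq_left.2 hNK] at h5
  obtain ⟨y, rfl⟩ := isConj_iff.1 hgc
  exact hg (by simpa [mul_assoc] using hK.conj_mem _ h5 y⁻¹)

end

theorem same_of_over {M : Ideal AlgInt} [hM : M.IsMaximal] {p : ℕ} [hp : Fact p.Prime]
    [CharP (Res M) p] (n : ℕ) : ∀ (G : Type u) [Group G] [Finite G] [Group.IsSolvable G],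
      Nat.card G = n → ∀ (N : Subgroup G) [N.Normal], pPrimeCore p G = N →
      ∀ θ : IrrCharacter N, (∀ g, irrCj N g θ = θ) → ∀ χ ψ : IrrCharacter G,
        Over N χ θ → Over N ψ θ → SameBlock M χ.1 ψ.1 := by
  induction n using Nat.strong_induction_on with
  | _ n ih =>
  intro G _ _ _ hn N _ hN θ hinv
  by_cases hN1 : N = ⊤
  · exact fun χ ψ h1 h2 => sameBlock_of_over_of_index N p (k := 0) (by simp [hN1]) h1 h2
      (sameBlock_refl _)
  obtain ⟨K, hK, hle⟩ := Fit.exists_coatom_ge (H := N ⊔ commutator G) fun e => by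
    haveI := QuotientGroup.nontrivial_iff.2 hN1
    have := congrArg (map (QuotientGroup.mk' N)) e
    rw [Subgroup.map_sup, Fit.map_mk'_self, bot_sup_eq, commutator_def, map_commutator,
      map_top_of_surjective _ (QuotientGroup.mk'_surjective N)] at this
    exact (Group.IsSolvable.commutator_lt_top_of_nontrivial (G ⧸ N)).ne this
  have hNK : N ≤ K := le_sup_left.trans hle
  haveI : K.Normal := Normal.of_commutator_le G (le_sup_right.trans hle)
  have hih := ih _ (hn ▸ Fit.card_lt_card_of_ne_top hK.1) K rfl (N.subgroupOf K)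
    (by rw [Fit.pPrimeCore_eq_subgroupOf, hN]) (thK hNK θ) (inv_thK hNK fun g _ => hinv g)
  have hun : ∀ χ ψ η ξ, Over N χ θ → Over N ψ θ → Over K χ η → Over K ψ ξ →
      SameBlock M η.1 ξ.1 := fun χ ψ η ξ h1 h2 h3 h4 =>
    hih η ξ (over_sub hNK hinv h1 h3) (over_sub hNK hinv h2 h4)
  obtain ⟨r, k, hr, -, hrk⟩ := (isPrimePow_nat_iff _).1 (Fit.isPrimePow_index_of_isCoatom hK)
  intro χ ψ h1 h2
  obtain ⟨η, h3⟩ := exists_under K χ
  obtain ⟨ξ, h4⟩ := exists_under K ψ
  by_cases hrp : r = p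
  · exact sameBlock_of_over_of_index K p (hrp ▸ hrk.symm) h3 h4 (hun _ _ _ _ h1 h2 h3 h4)
  have hi : ¬ p ∣ K.index := fun h => hrp
    ((Nat.prime_dvd_prime_iff_eq hp.out hr).1 (hp.out.dvd_of_dvd_pow (hrk ▸ h))).symm
  obtain ⟨x, hx⟩ : ∃ x, x ∉ K := by
    by_contra h
    push Not at h
    exact hK.1 (eq_top_iff.2 fun x _ => h x)
  have hx' : K ⊔ zpowers x = ⊤ := hK.2 _ (left_lt_sup.2 fun h => hx (h (mem_zpowers x)))
  have hNp : ¬ p ∣ Nat.card N := hN ▸ Fit.not_dvd_card_pPrimeCore hp.out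
  obtain ⟨χ1, a1, a2⟩ := exists_pprime hNp hinv
  obtain ⟨η1, a3⟩ := exists_under K χ1
  have hfull : ∀ χ : IrrCharacter G, Over N χ θ →
      blockDefect p (blockOf M χ.1) = (Nat.card G).factorization p := fun χ hχ => by
    let A : Set (IrrCharacter K) := {η | ∃ ψ ∈ blockOf M χ.1, Over K ψ η}
    have hA : Stable K A := fun g η ⟨ψ, b1, b2⟩ => ⟨ψ, b1, (over_irrCj K g).2 b2⟩
    have b1 : idem (overSet K A) ∈ SG G M := idem_mem_SG_of_closed p (by
      rintro ψ ⟨η, ⟨ψ', b1, b2⟩, b3⟩ ψ2 b4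
      obtain ⟨β, b5⟩ := twist_of_over hx' b2 b3
      obtain ⟨η', b6⟩ := exists_under K ψ2
      refine ⟨η', ⟨_, sameBlock_trans b1 (b5 ▸ sameBlock_twist hx' β b4), ?_⟩, b6⟩
      unfold Over at b6 ⊢
      rwa [funext fun n : K => twist_mem hx' β ψ2 n.2])
    rw [← hA.push_idem] at b1
    have b2 := trunc_mem_SG K.subtype b1
    rw [trunc_push K.subtype_injective] at b2
    obtain ⟨η, b3⟩ := exists_under K χ
    obtain ⟨ψ, b4, b5⟩ := mem_of_idem_mem_SG b2 ⟨χ, mem_blockOf_self χ, b3⟩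
      (hun _ _ _ _ hχ a1 b3 a3)
    obtain ⟨β, rfl⟩ := twist_of_over hx' b5 a3
    refine full_of_pprime b4 ?_
    rwa [charDegree, twist_mem hx' β χ1 K.one_mem]
  have h0 : pPrimeCore p (G ⧸ N) = ⊥ := by
    subst hN
    exact Fit.pPrimeCore_quotient_pPrimeCore _ _
  refine sameBlock_of_lam_classSum fun g => ?_
  by_cases hg : g ∈ K
  · rw [lam_classSum, lam_classSum, h3.centralChar_eq ⟨g, hg⟩, h4.centralChar_eq ⟨g, hg⟩]
    exact red_inducedCentralChar_eq K (hun _ _ _ _ h1 h2 h3 h4) g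
  · rw [lam_eq_zero_of_full h0 hNK hi (hfull χ h1) hg, lam_eq_zero_of_full h0 hNK hi (hfull ψ h2) hg]

end Cfsg.Agent.KR
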