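import Cfsg.Agent.Lib.KR.Sym

/-! Numerical data of a primitive solvable linear group. -/

set_option autoImplicit false
set_option linter.unusedSectionVars false
set_option linter.style.haveILetI false

namespace Cfsg.Agent.KR

open Subgroup Module
open scoped IsMulCommutative

universe u

theorem sum_pred_le {ι : Type*} (s : Finset ι) (x : ι → ℕ) {L : ℕ}
    (h : ∀ i ∈ s, 1 ≤ x i ∧ x i ≤ L) : ∑ i ∈ s, (x i - 1) + 1 ≤ ∏ i ∈ s, x i ∧
      L * ∑ i ∈ s, (x i - 1) + 2 * L ≤ L ^ 2 + ∏ i ∈ s, x i := by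
  classical
  induction s using Finset.induction_on with
  | empty => simp only [Finset.sum_empty, Finset.prod_empty]; exact ⟨le_rfl, by
      zify; nlinarith [sq_nonneg ((L : ℤ) - 1)]⟩
  | insert j t hj ih =>
    obtain ⟨h1, h2⟩ := ih fun i hi => h i (Finset.mem_insert_of_mem hi)
    obtain ⟨h3, h4⟩ := h j (Finset.mem_insert_self j t)
    rw [Finset.sum_insert hj, Finset.prod_insert hj]
    generalize ∑ i ∈ t, (x i - 1) = S at *
    generalize ∏ i ∈ t, x i = P at *
    obtain ⟨y, hy⟩ := Nat.exists_eq_add_of_le' h3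
    rw [hy] at h4 ⊢
    rw [Nat.add_sub_cancel]
    refine ⟨by nlinarith, ?_⟩
    rcases le_total L P with h5 | h5
    · nlinarith [Nat.mul_le_mul_left y h5]
    · obtain ⟨a, ha⟩ := Nat.exists_eq_add_of_le h5
      obtain ⟨b, hb⟩ := Nat.exists_eq_add_of_le h4
      zify at *
      have : (0 : ℤ) ≤ (L - P) * (L - (y + 1)) := mul_nonneg (by linarith) (by linarith)
      have : (L : ℤ) * (S + 1) ≤ L * P := mul_le_mul_of_nonneg_left h1 (by positivity)
      nlinarith

section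

variable {G V : Type u} [Group G] [Finite G] [AddCommGroup V] [Finite V]

theorem pr_le_sum [Fintype G] (X Y : Set G) [DecidablePred (· ∈ X)] :
    pr X Y ≤ ∑ g : G, if g ∈ X then Nat.card {y // y ∈ Set.univ ∧ Commute g y} else 0 := by
  have : pr X Y = ∑ g : G, Nat.card {y // g ∈ X ∧ y ∈ Y ∧ Commute g y} := by
    rw [← Nat.card_sigma]
    exact Nat.card_congr ⟨fun p => ⟨p.1.1, p.1.2, p.2⟩, fun p => ⟨(p.1, p.2.1), p.2.2⟩,
      fun _ => rfl, fun _ => rfl⟩
  rw [this]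
  refine Finset.sum_le_sum fun g _ => ?_
  split_ifs with h
  · exact Nat.card_le_card_of_injective (fun y => ⟨y.1, trivial, y.2.2.2⟩)
      fun _ _ e => Subtype.ext (congrArg Subtype.val e :)
  · simp [h]

theorem card_mul_le_inf (U W : Submodule ℤ V) :
    Nat.card U * Nat.card W ≤ Nat.card (U ⊓ W : Submodule ℤ V) * Nat.card V := by
  have h1 := U.toAddSubgroup.card_mul_index
  have h2 := W.toAddSubgroup.card_mul_index
  have h3 := (U.toAddSubgroup ⊓ W.toAddSubgroup).card_mul_index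
  have h4 := AddSubgroup.index_inf_le (H := U.toAddSubgroup) (K := W.toAddSubgroup)
  have h5 : 0 < U.toAddSubgroup.index * W.toAddSubgroup.index :=
    Nat.mul_pos (Nat.pos_of_ne_zero AddSubgroup.FiniteIndex.index_ne_zero)
      (Nat.pos_of_ne_zero AddSubgroup.FiniteIndex.index_ne_zero)
  refine Nat.le_of_mul_le_mul_right ?_ h5
  change Nat.card U * _ = _ at h1
  change Nat.card W * _ = _ at h2
  change Nat.card (U ⊓ W : Submodule ℤ V) * _ = _ at h3
  calc _ = (Nat.card U * U.toAddSubgroup.index) * (Nat.card W * W.toAddSubgroup.index) := by ring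
    _ = Nat.card (U ⊓ W : Submodule ℤ V) * Nat.card V *
        (U.toAddSubgroup ⊓ W.toAddSubgroup).index := by rw [h1, h2, mul_right_comm, h3]
    _ ≤ _ := Nat.mul_le_mul_left _ h4

theorem fix_sq (ρ : Rp G V) (g a : G) :
    Nat.card (fix ρ g) ^ 2 ≤ Nat.card (fix ρ (g * a * g⁻¹ * a⁻¹)) * Nat.card V := by
  have h1 : Nat.card (fix ρ g) ≤ Nat.card (fix ρ (a * g * a⁻¹)) :=
    Nat.card_le_card_of_injective (fun v => ⟨ρ a v, by
      rw [mem_fix, rp_mul, rp_inv_self, rp_mul, mem_fix.1 v.2]⟩)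
      fun _ _ e => Subtype.ext (rp_inj ρ a (congrArg Subtype.val e :))
  have h2 : Nat.card (fix ρ g ⊓ fix ρ (a * g * a⁻¹) : Submodule ℤ V) ≤
      Nat.card (fix ρ (g * a * g⁻¹ * a⁻¹)) :=
    Nat.card_le_card_of_injective (fun v => ⟨v, by
      have := (stb ρ v.1).mul_mem v.2.1 ((stb ρ v.1).inv_mem v.2.2)
      rw [mem_fix, ← mem_stb]
      simpa [mul_assoc] using this⟩) fun _ _ e => Subtype.ext (congrArg Subtype.val e :)
  rw [sq]
  exact (Nat.mul_le_mul_left _ h1).trans ((card_mul_le_inf _ _).trans (Nat.mul_le_mul_right _ h2))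

theorem tb (ρ : Rp G V) (Z : Subgroup G) [Z.Normal] (hZ : ∀ z ∈ Z, ∀ g, g * z = z * g)
    (hsr : ∀ z ∈ Z, ∀ v, ρ z v = v → z = 1 ∨ v = 0) {L M : ℕ} (hL0 : 0 < L)
    (hL : ∀ g, g ∉ Z → Nat.card (fix ρ g) ≤ L) (hM : L ^ 2 + Nat.card V ≤ L * M + 2 * L) :
    TT False ρ ⊤ + Nat.card (G ⧸ Z) * (1 + M) ≤
      Nat.card (G ⧸ Z) * (kk (G ⧸ Z) * Nat.card Z ^ 2 + Nat.card V + kk (G ⧸ Z) * M) := by
  classical
  haveI := Fintype.ofFinite V
  haveI := Fintype.ofFinite (G ⧸ Z)
  haveI := Fintype.ofFinite Z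
  let π := QuotientGroup.mk' Z
  let cz : G ⧸ Z → ℕ := fun g => Nat.card {y // y ∈ Set.univ ∧ Commute g y}
  let N : G ⧸ Z → ℕ := fun g => ((Finset.univ.erase 0).filter fun v => g ∈ (stb ρ v).map π).card
  have h1 : TT False ρ ⊤ ≤ ∑ v : V, pr (stb ρ v : Set G) (stb ρ v) := by
    rw [← finsum_eq_sum_of_fintype]
    exact finsum_le_of_inj _ Subtype.val_injective _ _ fun _ => le_rfl
  have h2 : pr (stb ρ 0 : Set G) (stb ρ 0) ≤ Nat.card (G ⧸ Z) * (kk (G ⧸ Z) * Nat.card Z ^ 2) := by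
    refine (pr_mono (Set.subset_univ _) (Set.subset_univ _)).trans ?_
    rw [pr_univ, card_eq_card_quotient_mul_card_subgroup Z]
    refine (Nat.mul_le_mul_right _ ((kk_le_quot Z).trans
      (Nat.mul_le_mul_left _ (kk_le_card Z)))).trans_eq (by ring)
  have h3 : ∑ v ∈ Finset.univ.erase 0, pr (stb ρ v : Set G) (stb ρ v) ≤ ∑ g, cz g * N g := by
    simp only [N, Finset.card_filter, Finset.mul_sum]
    rw [Finset.sum_comm]
    refine Finset.sum_le_sum fun v hv => (pr_prod π (stb ρ v) (T := (stb ρ v).map π)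
      fun g hg => mem_map_of_mem π hg).trans ?_
    have : stb ρ v ⊓ π.ker = ⊥ := eq_bot_iff.2 fun z hz =>
      (hsr z ((QuotientGroup.eq_one_iff z).1 hz.2) v hz.1).resolve_right (Finset.ne_of_mem_erase hv)
    rw [this, pr_subgroup ⊥]
    refine (Nat.mul_le_mul_left _ (Nat.mul_le_mul_right _ (kk_le_card _))).trans ?_
    rw [card_bot, mul_one, mul_one]
    refine (pr_le_sum _ _).trans_eq (Finset.sum_congr rfl fun g _ => ?_)
    simp only [SetLike.mem_coe, mul_ite, mul_one, mul_zero, cz]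
  have h4 : ∀ g ∈ Finset.univ.erase 1, cz g * N g ≤ cz g * M := fun g hg => by
    refine Nat.mul_le_mul_left _ ?_
    obtain ⟨g, rfl⟩ := QuotientGroup.mk'_surjective Z g
    have hg' : ∀ z : Z, g * z ∉ Z := fun z h => Finset.ne_of_mem_erase hg
      ((QuotientGroup.eq_one_iff g).2 (by simpa using Z.mul_mem h (Z.inv_mem z.2)))
    have hind : (Finset.univ : Finset Z).SupIndep fun z => fix ρ (g * z) := by
      refine supIndep_of_sep _ _ fun i _ j _ hij => ⟨(ρ (g * j) - 1).toAddMonoidHom,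
        fun l _ u hu => ?_, fun u hu => sub_eq_zero.2 hu, fun u hu e => ?_⟩
      · refine Submodule.sub_mem _ ?_ hu
        rw [mem_fix, ← rp_mul, show g * l * (g * j) = g * j * (g * l) from
          Commute.mul_right (Commute.mul_left (Commute.refl g) (hZ _ l.2 g).symm) (hZ _ j.2 _),
          rp_mul, mem_fix.1 hu]
      · have := (stb ρ u).mul_mem ((stb ρ u).inv_mem hu) (sub_eq_zero.1 e)
        refine (hsr _ (i⁻¹ * j).2 u (mem_stb.1 (by simpa [mul_assoc] using this))).resolve_left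
          fun h => hij ?_
        exact inv_mul_eq_one.1 (Subtype.ext h)
    have h5 := (sum_pred_le Finset.univ (fun z : Z => Nat.card (fix ρ (g * z)))
      fun z _ => ⟨Nat.card_pos, hL _ (hg' z)⟩).2
    rw [← card_finset_sup hind] at h5
    have h6 := Nat.card_le_card_of_injective _
      (Subtype.val_injective (p := (· ∈ Finset.univ.sup fun z : Z => fix ρ (g * z))))
    refine le_trans ?_ (Nat.le_of_mul_le_mul_left (show L * (∑ z : Z,
      (Nat.card (fix ρ (g * z)) - 1)) ≤ L * M by omega) hL0)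
    refine (Finset.card_le_card (t := Finset.univ.biUnion fun z : Z =>
      (Finset.univ.filter (· ∈ fix ρ (g * z))).erase 0) fun v hv => ?_).trans
      (Finset.card_biUnion_le.trans_eq (Finset.sum_congr rfl fun z _ => ?_))
    · obtain ⟨h7, y, hy, e⟩ := Finset.mem_filter.1 hv
      refine Finset.mem_biUnion.2 ⟨⟨g⁻¹ * y, QuotientGroup.eq.1 e.symm⟩, Finset.mem_univ _, ?_⟩
      simpa [Finset.ne_of_mem_erase h7] using (show v ∈ fix ρ y from hy)
    · rw [Finset.card_erase_of_mem (by simp), Nat.card_eq_fintype_card, Fintype.card_subtype]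
  have h5 : N 1 + 1 ≤ Nat.card V := by
    have := Finset.card_erase_add_one (Finset.mem_univ (0 : V))
    rw [Finset.card_univ, ← Nat.card_eq_fintype_card] at this
    exact (Nat.add_le_add_right (Finset.card_filter_le _ _) _).trans_eq this
  have h6 := sum_pr_single (Set.univ : Set (G ⧸ Z))
  have h7 : cz 1 = Nat.card (G ⧸ Z) := by simp [cz]
  have h8 := Finset.sum_le_sum h4
  rw [← Finset.add_sum_erase _ _ (Finset.mem_univ 0)] at h1
  rw [← Finset.add_sum_erase _ _ (Finset.mem_univ 1)] at h3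
  change ∑ g, cz g = _ at h6
  rw [← Finset.add_sum_erase _ _ (Finset.mem_univ 1), pr_univ] at h6
  rw [← Finset.sum_mul] at h8
  rw [h7] at h3 h6
  have h9 := Nat.mul_le_mul_left (Nat.card (G ⧸ Z)) h5
  have h10 := congrArg (· * M) h6
  nlinarith

theorem kk_selfcent (N : Subgroup G) [N.Normal] (h : centralizer (N : Set G) ≤ N) {c : ℕ}
    (hc : ∀ d, d ∣ Nat.card N → d < Nat.card N → d ≤ c) :
    kk G * N.index + c ≤ Nat.card N + c * N.index * kk (G ⧸ N) := by
  have := kk_refined (QuotientGroup.mk' N) (QuotientGroup.mk'_surjective N) (c := c) (by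
    rw [QuotientGroup.ker_mk']
    intro x hx
    have e : Nat.card {y // y ∈ (N : Set G) ∧ Commute x y} =
        Nat.card (N ⊓ centralizer {x} : Subgroup G) := Nat.card_congr
      (Equiv.subtypeEquivRight fun y => and_congr_right fun _ =>
        ⟨fun h => mem_centralizer_singleton_iff.2 h.symm,
          fun h => (mem_centralizer_singleton_iff.1 h).symm⟩)
    rw [e]
    refine hc _ (card_dvd_of_le inf_le_left) (lt_of_le_of_ne (card_le_of_le inf_le_left)
      fun e => hx (h fun y hy => ?_))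
    rw [← eq_of_le_of_card_ge inf_le_left e.ge] at hy
    exact mem_centralizer_singleton_iff.1 hy.2)
  rwa [QuotientGroup.ker_mk'] at this

theorem prim_data [Group.IsSolvable G] [Nontrivial V] {ρ : Rp G V} (hf : Fa ρ) (hs : SS ρ)
    (hd : ¬ Dec ρ) : ∃ q m s k z e x : ℕ, Nat.card V = q ^ m ∧ s ^ k = q ∧ 2 ≤ s ∧ 1 ≤ k ∧
      z ∣ q - 1 ∧ 1 ≤ z ∧ 1 ≤ e ∧ e ≤ m ∧ (e ≠ 1 → ¬ e.Coprime z) ∧ kk G ≤ k * z * x ∧
      (e = 1 → x = 1 ∧ ∀ c, (∀ d, d ∣ z → d < z → d ≤ c) → kk G * k + c ≤ z + c * k * k) ∧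
      (∀ b n, Bd.{u} True (fun _ => True) b n → 2 ≤ e → e ^ 2 ≤ n → ∀ c ≤ e ^ 2,
        (∀ d, d ∣ e ^ 2 → d < e ^ 2 → d ≤ c) → x + c ≤ e ^ 2 + c * b (e ^ 2)) ∧
      ∀ L M, 0 < L → (∀ d, 4 * d ≤ 3 * m → q ^ d ≤ L) → L ^ 2 + q ^ m ≤ L * M + 2 * L →
        z * TT False ρ ⊤ + k * (1 + M) * Nat.card G ≤
          k * (x * z ^ 2 + q ^ m + x * M) * Nat.card G := by
  obtain ⟨Z, ⟨hZn, hZ⟩, hmax⟩ := exists_maximal_of_wellFoundedGT
    (fun Z : Subgroup G => Z.Normal ∧ Z ≤ centralizer (Z : Set G)) ⟨⊥, inferInstance, bot_le⟩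
  obtain ⟨q, m, s, hV, hs', h2, hz, hsr, hfix, ⟨K, _, θ, hθ⟩, hA⟩ := field_data hf hs hd hZ
  obtain ⟨A, e, hAn, hZA, hAY, hc, ha, hcc, he, hcop, hss⟩ :=
    exists_sym hZ (fun W h1 h2 h3 => hmax ⟨h1, h2⟩ h3) θ hθ
  set Y := centralizer (Z : Set G) with hY
  let π := QuotientGroup.mk' Z
  have hπ : Function.Surjective π := QuotientGroup.mk'_surjective Z
  have hk : ∀ x, π x = 1 ↔ x ∈ Z := fun x => QuotientGroup.eq_one_iff x
  let f := π.subgroupMap Y
  have hW : ∀ y, y ∈ f.ker ↔ (y : G) ∈ Z := fun y =>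
    ⟨fun h => (hk y).1 (congrArg Subtype.val h), fun h => Subtype.ext ((hk y).2 h)⟩
  have hWc : Nat.card f.ker = Nat.card Z := by
    rw [show f.ker = Z.subgroupOf Y from Subgroup.ext hW]
    exact Nat.card_congr (subgroupOfEquivOfLe hZ).toEquiv
  have hk1 : 0 < Y.index := Nat.pos_of_ne_zero FiniteIndex.index_ne_zero
  have hq : 2 ≤ q := hs' ▸ h2.trans (Nat.le_self_pow hk1.ne' s)
  have he1 : 1 ≤ e := by
    have := relIndex_pos Z A
    rw [he] at this
    exact Nat.pos_of_ne_zero fun h => by simp [h] at this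
  refine ⟨q, m, s, Y.index, Nat.card Z, e, kk (Y ⧸ f.ker), hV, hs', h2, hk1, hz, Nat.card_pos, he1,
    (Nat.pow_le_pow_iff_left two_ne_zero).1 (he ▸ hA A hAY hc ha), hcop, ?_, fun e1 => ?_,
    fun b n hb e2 hn c hce hdc => ?_, fun L M hL0 hL hM => ?_⟩
  · refine (kk_le_quot Y).trans ((Nat.mul_le_mul (kk_le_card _) ((kk_le_quot f.ker).trans
      (Nat.mul_le_mul_left _ ((kk_le_card _).trans_eq hWc)))).trans_eq ?_)
    rw [← index_eq_card]; ring
  · have hAZ : A ≤ Z := relIndex_eq_one.1 (by rw [he, e1, one_pow])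
    have hYZ : Y = Z := le_antisymm (fun y hy => hAZ (hcc y hy fun a h => by
      rw [← hy a (hAZ h)]; simp)) hZ
    refine ⟨le_antisymm ((kk_le_card _).trans_eq ?_) (kk_pos _), fun c hdc => ?_⟩
    · exact index_eq_one.2 (eq_top_iff.2 fun y _ => (hW y).2 (hYZ.le y.2))
    · have := kk_selfcent Z hYZ.le hdc
      rw [hYZ]
      exact this.trans (Nat.add_le_add_left (Nat.mul_le_mul_left _ (kk_le_card _)) _)
  · let B := A.map π
    haveI : B.Normal := hAn.map π hπ
    have hcm : ∀ x y, x * y * x⁻¹ * y⁻¹ ∈ Z ↔ π x * π y = π y * π x := fun x y => by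
      rw [← hk, map_mul, map_mul, map_mul, map_inv, map_inv, mul_inv_eq_one, mul_inv_eq_iff_eq_mul]
    have hBc : B ≤ centralizer (B : Set (G ⧸ Z)) := by
      rintro _ ⟨a, h, rfl⟩ _ ⟨a', h', rfl⟩
      exact (hcm _ _).1 (hc _ h' _ h)
    haveI : IsMulCommutative B := ⟨⟨fun a b => Subtype.ext (hBc b.2 _ a.2)⟩⟩
    have hB : Nat.card B = e ^ 2 := by rw [← he, ← relIndex_ker, QuotientGroup.ker_mk']
    have hS : SS (cjRep B) := ss_cjRep B fun S hS hle => by
      obtain ⟨S', h1, h2, h3, h4⟩ := hss (S.comap π) (hS.comap π) (fun x hx => by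
        change π x ∈ S
        rw [(hk x).2 hx]; exact S.one_mem) ((comap_mono hle).trans_eq (by
          rw [comap_map_eq, QuotientGroup.ker_mk', sup_eq_left.2 hZA]))
      refine ⟨S'.map π, h1.map π hπ, map_mono h2, eq_bot_iff.2 ?_, (map_mono h4).trans ?_⟩
      · rintro _ ⟨h5, y, hy, rfl⟩
        exact (hk y).2 (h3 ⟨h5, hy⟩)
      · rw [Subgroup.map_sup]
        exact sup_le_sup_right (map_comap_le _ _) _
    let τ : Rp (Y.map π) (Additive B) := (cjRep B).comp (Y.map π).subtype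
    have hτ : ∀ y, y ∈ τ.ker ↔ (y : G ⧸ Z) ∈ centralizer (B : Set (G ⧸ Z)) := fun y => by
      rw [← ker_cjRep]; rfl
    have hτ' : τ.ker = B.subgroupOf (Y.map π) := Subgroup.ext fun ⟨_, y, hy, rfl⟩ =>
      (hτ _).trans ⟨fun h => mem_map_of_mem π (hcc y hy fun a ha =>
        (hcm _ _).2 (h _ (mem_map_of_mem π ha)).symm), fun h => hBc h⟩
    have hτc : Nat.card τ.ker = e ^ 2 := by
      rw [hτ', ← hB]
      exact Nat.card_congr (subgroupOfEquivOfLe (map_mono hAY)).toEquiv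
    have h3 := hb.kk τ (hS.normal _) (show 2 ≤ Nat.card B by rw [hB]; nlinarith)
      (show Nat.card B ≤ n from hB ▸ hn) trivial
    have h4 := kk_selfcent τ.ker (fun y hy => (hτ y).2 fun a ha =>
      congrArg Subtype.val (hy ⟨a, map_mono hAY ha⟩ (hτ'.ge ha))) (hτc ▸ hdc)
    rw [kk_congr (QuotientGroup.quotientKerEquivOfSurjective f (π.subgroupMap_surjective Y))]
    change _ ≤ b (Nat.card B) at h3
    rw [hB] at h3
    rw [hτc] at h4
    have h5 : 0 < τ.ker.index := Nat.pos_of_ne_zero FiniteIndex.index_ne_zero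
    have h6 := Nat.mul_le_mul_left (c * τ.ker.index) h3
    obtain ⟨r, hr⟩ := Nat.exists_eq_add_of_le hce
    rw [hr] at h4 ⊢
    have h7 := Nat.mul_le_mul_left r h5
    refine Nat.le_of_mul_le_mul_right ?_ h5
    rw [← hr]
    nlinarith
  · have h3 : ∀ g ∈ A, g ∉ Z → Nat.card (fix ρ g) ^ 2 ≤ Nat.card V := fun g hg hgZ => by
      obtain ⟨a, h, h'⟩ : ∃ a ∈ A, a * g ≠ g * a := by
        by_contra hne
        push Not at hne
        exact hgZ (ha ⟨hg, hne⟩)
      have : fix ρ (g * a * g⁻¹ * a⁻¹) = ⊥ := eq_bot_iff.2 fun v hv =>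
        (hsr _ (hc g hg a h) v hv).resolve_left fun e => h' (by
          rw [mul_inv_eq_one, mul_inv_eq_iff_eq_mul] at e; exact e.symm)
      simpa [this] using fix_sq ρ g a
    have h4 : ∀ g ∈ Y, g ∉ Z → Nat.card (fix ρ g) ^ 4 ≤ Nat.card V ^ 3 := fun g hg hgZ => by
      have hp : 0 < Nat.card V := Nat.card_pos
      by_cases hgA : g ∈ A
      · exact (Nat.pow_le_pow_left (h3 g hgA hgZ) 2).trans' (by rw [← pow_mul]) |>.trans
          (Nat.pow_le_pow_right hp (by norm_num))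
      · obtain ⟨a, h, h'⟩ : ∃ a ∈ A, g * a * g⁻¹ * a⁻¹ ∉ Z := by
          by_contra hne
          push Not at hne
          exact hgA (hcc g hg hne)
        have h5 := h3 _ (A.mul_mem (hAn.conj_mem a h g) (A.inv_mem h)) h'
        calc _ = (Nat.card (fix ρ g) ^ 2) ^ 2 := by ring
          _ ≤ _ := Nat.pow_le_pow_left (fix_sq ρ g a) 2
          _ ≤ Nat.card V * Nat.card V ^ 2 := by rw [mul_pow]; exact Nat.mul_le_mul_right _ h5
          _ = _ := by ring
    have h5 := tb (ρ.comp Y.subtype) f.ker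
      (fun z hz g => Subtype.ext (g.2 _ ((hW z).1 hz)).symm)
      (fun z hz v e => (hsr _ ((hW z).1 hz) v e).imp_left Subtype.ext) hL0 (fun g hg => by
        obtain ⟨d, h⟩ := hfix g g.2
        have := h4 g g.2 fun h => hg ((hW g).2 h)
        rw [h, hV, ← pow_mul, ← pow_mul, Nat.pow_le_pow_iff_right hq] at this
        exact h.trans_le (hL d (by omega))) (hV ▸ hM)
    have h6 := TT_le_ker (ε := False) ρ ⊤ (QuotientGroup.mk' Y)
    rw [QuotientGroup.ker_mk', ← index_eq_card] at h6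
    have h7 : Nat.card G = Nat.card (Y ⧸ f.ker) * Nat.card Z * Y.index := by
      rw [← hWc, ← card_eq_card_quotient_mul_card_subgroup, card_mul_index]
    have h8 := Nat.mul_le_mul_left (Nat.card Z) (h6.trans (Nat.mul_le_mul_right _
      (Nat.mul_le_mul_right _ (show _ ≤ Y.index from kk_le_card _))))
    have h9 := Nat.mul_le_mul_left (Nat.card Z * Y.index * Y.index) h5
    rw [hWc, hV] at h9
    rw [h7]
    nlinarith

end

end Cfsg.Agent.KR
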