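import Cfsg.Agent.Lib.KR.Rep
import Cfsg.Agent.Lib.Fit.Fitting

/-! Reduction to primitive actions, and class numbers of solvable permutation groups. -/

set_option autoImplicit false
set_option linter.unusedSectionVars false
set_option linter.style.haveILetI false

namespace Cfsg.Agent.KR

open Subgroup
open scoped IsMulCommutative

universe u

section Conj

variable {G : Type*} [Group G]

/-- The conjugation action on an abelian normal subgroup. -/
def cjRep (A : Subgroup G) [A.Normal] [IsMulCommutative A] : Rp G (Additive A) where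
  toFun g := (MonoidHom.toAdditive (MulAut.conjNormal g : MulAut A).toMonoidHom).toIntLinearMap
  map_one' := by ext x; simp
  map_mul' g h := by ext x; simp [mul_assoc]

theorem cjRep_apply (A : Subgroup G) [A.Normal] [IsMulCommutative A] (g : G) (a : Additive A) :
    ((cjRep A g a).toMul : G) = g * (a.toMul : G) * g⁻¹ := rfl

theorem ker_cjRep (A : Subgroup G) [A.Normal] [IsMulCommutative A] :
    (cjRep A).ker = centralizer (A : Set G) := by
  ext g
  rw [mem_ker_iff, mem_centralizer_iff]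
  constructor
  · intro h a ha
    have := congrArg (fun x => ((Additive.toMul x : A) : G)) (h (Additive.ofMul ⟨a, ha⟩))
    simp only [cjRep_apply] at this
    exact (mul_inv_eq_iff_eq_mul.1 this).symm
  · intro h a
    refine Additive.toMul.injective (Subtype.ext ?_)
    rw [cjRep_apply, ← h _ a.toMul.2, mul_inv_cancel_right]

theorem ss_cjRep (A : Subgroup G) [hA : A.Normal] [IsMulCommutative A]
    (h : ∀ S : Subgroup G, S.Normal → S ≤ A →
      ∃ S' : Subgroup G, S'.Normal ∧ S' ≤ A ∧ S ⊓ S' = ⊥ ∧ A ≤ S ⊔ S') : SS (cjRep A) := by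
  intro U hU
  let S : Subgroup G := (AddSubgroup.toSubgroup' U.toAddSubgroup).map A.subtype
  have hS : ∀ a : Additive A, ((a.toMul : A) : G) ∈ S ↔ a ∈ U := fun a =>
    mem_map_iff_mem A.subtype_injective
  haveI hn : S.Normal := ⟨by
    rintro _ ⟨a, ha, rfl⟩ g
    exact (hS (cjRep A g (Additive.ofMul a))).2 (hU g _ ha)⟩
  obtain ⟨S', h1, h2, h3, h4⟩ := h S hn (map_subtype_le _)
  refine ⟨(Subgroup.toAddSubgroup (S'.subgroupOf A)).toIntSubmodule, fun g a ha => ?_, ?_, ?_⟩
  · exact h1.conj_mem _ ha g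
  · rw [Submodule.disjoint_def]
    intro a ha ha'
    have : ((a.toMul : A) : G) ∈ S ⊓ S' := ⟨(hS a).2 ha, ha'⟩
    rw [h3] at this
    exact Additive.toMul.injective (Subtype.ext this)
  · rw [codisjoint_iff, eq_top_iff]
    intro a _
    have := h4 a.toMul.2
    rw [← SetLike.mem_coe, normal_mul] at this
    obtain ⟨_, ⟨x, hx, rfl⟩, y, hy, e⟩ := this
    exact Submodule.mem_sup.2 ⟨Additive.ofMul x, hx, Additive.ofMul ⟨y, h2 hy⟩, hy,
      Additive.toMul.injective (Subtype.ext e)⟩

/-- A permutation representation from an action map. -/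
def mkP {X : Type*} (act : G → X → X) (h1 : ∀ x, act 1 x = x)
    (hm : ∀ g h x, act (g * h) x = act g (act h x)) : G →* Equiv.Perm X :=
  letI : MulAction G X := { smul := act, one_smul := h1, mul_smul := hm }
  MulAction.toPermHom G X

theorem mkP_apply {X : Type*} (act : G → X → X) (h1 : ∀ x, act 1 x = x)
    (hm : ∀ g h x, act (g * h) x = act g (act h x)) (g : G) (x : X) :
    mkP act h1 hm g x = act g x := rfl

/-- Restriction of a permutation representation to an invariant subset. -/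
def resP {X : Type*} (σ : G →* Equiv.Perm X) (p : X → Prop) (h : ∀ g x, p x → p (σ g x)) :
    G →* Equiv.Perm {x // p x} :=
  mkP (fun g x => ⟨σ g x, h g x x.2⟩) (fun x => Subtype.ext (by simp))
    fun g k x => Subtype.ext (by simp)

theorem kk_le_range {H : Type*} [Group H] [Finite G] (f : G →* H) :
    kk G ≤ kk f.range * kk f.ker := by
  haveI : Finite f.range := Finite.of_surjective _ f.rangeRestrict_surjective
  have := kk_le_mul f.rangeRestrict f.rangeRestrict_surjective
  rwa [MonoidHom.ker_rangeRestrict] at this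

instance solvable_range {H : Type*} [Group H] [Group.IsSolvable G] (f : G →* H) :
    Group.IsSolvable f.range := Group.isSolvable_of_surjective f.rangeRestrict_surjective

end Conj

/-- The bound for faithful semisimple actions on groups of order at most `n`. -/
def Bd (ε : Prop) (P : ℕ → Prop) (b : ℕ → ℕ) (n : ℕ) : Prop :=
  ∀ (G V : Type u) [Group G] [Finite G] [Group.IsSolvable G] [AddCommGroup V] [Finite V]
    (ρ : Rp G V), Fa ρ → SS ρ → 2 ≤ Nat.card V → Nat.card V ≤ n → P (Nat.card V) →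
      TT ε ρ ⊤ ≤ b (Nat.card V) * Nat.card G

/-- The bound for solvable permutation groups of degree at most `n`. -/
def PBS (n : ℕ) : Prop :=
  ∀ (G Ω J : Type u) [Group G] [Finite G] [Group.IsSolvable G] [Finite Ω] [Finite J]
    (σ : G →* Equiv.Perm Ω) (φ : Ω → J), Function.Injective σ → Function.Surjective φ →
      (∀ g x, φ (σ g x) = φ x) → Nat.card Ω ≤ n → kk G * 3 ^ Nat.card J ≤ 3 ^ Nat.card Ω

theorem PBS.one {n : ℕ} (h : PBS.{u} n) {G Ω : Type u} [Group G] [Finite G] [Group.IsSolvable G]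
    [Finite Ω] [Nonempty Ω] (σ : G →* Equiv.Perm Ω) (hn : Nat.card Ω ≤ n) :
    kk σ.range * 3 ≤ 3 ^ Nat.card Ω := by
  have := h σ.range Ω PUnit σ.range.subtype (fun _ => PUnit.unit) σ.range.subtype_injective
    (fun _ => ⟨Classical.arbitrary Ω, rfl⟩) (fun _ _ => rfl) hn
  simpa using this

theorem Bd.kk {P : ℕ → Prop} {b : ℕ → ℕ} {n : ℕ} (h : Bd.{u} True P b n) {G V : Type u} [Group G]
    [Finite G] [Group.IsSolvable G] [AddCommGroup V] [Finite V] (ρ : Rp G V) (hs : SS ρ)
    (h2 : 2 ≤ Nat.card V) (hn : Nat.card V ≤ n) (hP : P (Nat.card V)) :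
    kk (G ⧸ ρ.ker) ≤ b (Nat.card V) := by
  have := h _ V (qr ρ) (fa_qr ρ) hs.qr h2 hn hP
  rw [TT_of_zero _ fun v _ h => h trivial] at this
  exact Nat.le_of_mul_le_mul_right this Nat.card_pos

theorem card_subtype_add {X : Type*} [Finite X] (p : X → Prop) :
    Nat.card {x // p x} + Nat.card {x // ¬ p x} = Nat.card X := by
  classical
  rw [← Nat.card_sum]
  exact Nat.card_congr (Equiv.sumCompl p)

theorem pb_split {n : ℕ} (h : PBS.{u} n) {G Ω J : Type u} [Group G] [Finite G]
    [Group.IsSolvable G] [Finite Ω] [Finite J] [Nontrivial J] (σ : G →* Equiv.Perm Ω) (φ : Ω → J)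
    (hσ : Function.Injective σ) (hφ : Function.Surjective φ) (hi : ∀ g x, φ (σ g x) = φ x)
    (hn : Nat.card Ω ≤ n + 1) : kk G * 3 ^ Nat.card J ≤ 3 ^ Nat.card Ω := by
  obtain ⟨j, j', hj⟩ := exists_pair_ne J
  obtain ⟨x, hx⟩ := hφ j
  obtain ⟨x', hx'⟩ := hφ j'
  haveI : Nonempty {x // φ x = j} := ⟨⟨x, hx⟩⟩
  haveI : Nonempty {x // ¬ φ x = j} := ⟨⟨x', fun e => hj (e.symm.trans hx')⟩⟩
  have c1 := card_subtype_add fun x => φ x = j
  have c2 := card_subtype_add fun i => i = j
  have p1 : 0 < Nat.card {x // φ x = j} := Nat.card_pos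
  have p2 : 0 < Nat.card {x // ¬ φ x = j} := Nat.card_pos
  let σ1 := resP σ (fun x => φ x = j) fun g x hx => (hi g x).trans hx
  let σ2 := resP σ (fun x => ¬ φ x = j) fun g x hx => (hi g x).symm ▸ hx
  have h1 := h.one σ1 (by omega)
  have h2 := h σ1.ker {x // ¬ φ x = j} {i // ¬ i = j} (σ2.comp σ1.ker.subtype)
    (fun x => ⟨φ x, x.2⟩) ((injective_iff_map_eq_one _).2 fun g hg => Subtype.ext (hσ ?_))
    (fun i => by
      obtain ⟨y, hy⟩ := hφ i
      exact ⟨⟨y, hy ▸ i.2⟩, Subtype.ext hy⟩) (fun g x => Subtype.ext (hi g x)) (by omega)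
  · have h3 := kk_le_range σ1
    rw [Nat.card_unique] at c2
    rw [← c1, ← c2, pow_add, pow_add, pow_one]
    calc kk G * (3 * 3 ^ Nat.card {i // ¬ i = j})
        ≤ kk σ1.range * kk σ1.ker * (3 * 3 ^ Nat.card {i // ¬ i = j}) := Nat.mul_le_mul_right _ h3
      _ = kk σ1.range * 3 * (kk σ1.ker * 3 ^ Nat.card {i // ¬ i = j}) := by ring
      _ ≤ _ := Nat.mul_le_mul h1 h2
  · rw [OneMemClass.coe_one, map_one]
    ext y
    by_cases e : φ y = j
    · exact congrArg Subtype.val (Equiv.congr_fun (MonoidHom.mem_ker.1 g.2) ⟨y, e⟩)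
    · exact congrArg Subtype.val (Equiv.congr_fun hg ⟨y, e⟩)

theorem cube_le_three_pow (t : ℕ) : t ^ 3 ≤ 3 ^ t := by
  rcases Nat.lt_or_ge t 3 with h | h
  · interval_cases t <;> norm_num
  · induction t, h using Nat.le_induction with
    | base => norm_num
    | succ t ht ih =>
      have : (t + 1) ^ 3 ≤ 3 * t ^ 3 := by
        obtain ⟨s, rfl⟩ := Nat.exists_eq_add_of_le ht
        ring_nf; nlinarith [Nat.zero_le (s ^ 3), Nat.zero_le (s ^ 2)]
      rw [pow_succ 3]; omega

theorem pb_of {b : ℕ → ℕ} (hb : ∀ x, 2 ≤ x → 3 * b x ≤ x ^ 2) {n : ℕ}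
    (hN : Bd.{u} True (fun _ => True) b n) (m : ℕ) (hm : m ≤ n) : PBS.{u} m := by
  induction m with
  | zero =>
    intro G Ω J _ _ _ _ _ σ φ hσ hφ _ h0
    haveI : IsEmpty Ω := by
      rcases Nat.card_eq_zero.1 (Nat.le_zero.1 h0) with h | h
      exacts [h, (not_finite Ω).elim]
    haveI : IsEmpty J := hφ.isEmpty
    haveI : Subsingleton G := hσ.subsingleton
    have := kk_le_card G
    rw [Nat.card_unique] at this
    simpa using this
  | succ m ih =>
    have ih := ih (by omega)
    intro G Ω J _ _ _ _ _ σ φ hσ hφ hi hn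
    rcases subsingleton_or_nontrivial J with hJ | hJ
    swap
    · exact pb_split ih σ φ hσ hφ hi hn
    rcases subsingleton_or_nontrivial G with hG | hG
    · have := kk_le_card G
      rw [Nat.card_unique] at this
      exact (Nat.mul_le_mul this (Nat.pow_le_pow_right (by norm_num)
        (Nat.card_le_card_of_surjective φ hφ))).trans_eq (one_mul _)
    suffices kk G * 3 ≤ 3 ^ Nat.card Ω from le_trans (Nat.mul_le_mul_left _
      ((Nat.pow_le_pow_right (by norm_num) (Finite.card_le_one_iff_subsingleton.2 hJ)))) this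
    obtain ⟨A, -, hA, hA1, -, hc, -, -, hmin⟩ := Fit.exists_minimal_normal_elementary G
    let orb : Ω → Set Ω := fun x => {y | ∃ a ∈ A, σ a x = y}
    have horb : ∀ g x, σ g '' orb x = orb (σ g x) := fun g x => by
      ext y
      constructor
      · rintro ⟨_, ⟨a, ha, rfl⟩, rfl⟩
        exact ⟨_, hA.conj_mem a ha g, by simp⟩
      · rintro ⟨a, ha, rfl⟩
        exact ⟨_, ⟨_, hA.conj_mem a ha g⁻¹, rfl⟩, by simp⟩
    have horbA : ∀ a ∈ A, ∀ x, orb (σ a x) = orb x := fun a ha x => by
      ext y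
      constructor
      · rintro ⟨c, hc, rfl⟩
        exact ⟨c * a, A.mul_mem hc ha, by simp⟩
      · rintro ⟨c, hc, rfl⟩
        exact ⟨c * a⁻¹, A.mul_mem hc (A.inv_mem ha), by simp⟩
    obtain ⟨a, ha, x, hx⟩ : ∃ a ∈ A, ∃ x, σ a x ≠ x := by
      by_contra hne
      push Not at hne
      exact hA1 (eq_bot_iff.2 fun a ha => hσ (by rw [map_one]; exact Equiv.ext (hne a ha)))
    let φ' : Ω → Set.range orb := fun x => ⟨orb x, x, rfl⟩
    have hφ' : Function.Surjective φ' := by rintro ⟨_, x, rfl⟩; exact ⟨x, rfl⟩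
    rcases subsingleton_or_nontrivial (Set.range orb) with hJ' | hJ'
    · have htr : ∀ y, ∃ a ∈ A, σ a x = y := fun y => by
        have : orb y = orb x := congrArg Subtype.val (Subsingleton.elim (φ' y) (φ' x))
        have h1 : y ∈ orb y := ⟨1, A.one_mem, by simp⟩
        rwa [this] at h1
      have hfix : ∀ c ∈ centralizer (A : Set G), σ c x = x → c = 1 := fun c hc e => hσ (by
        rw [map_one]
        ext y
        obtain ⟨d, hd, rfl⟩ := htr y
        rw [← Equiv.Perm.mul_apply, ← map_mul, ← hc d hd, map_mul, Equiv.Perm.mul_apply, e]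
        rfl)
      have hAC : A ≤ centralizer (A : Set G) := le_centralizer A
      have hCA : centralizer (A : Set G) ≤ A := fun c hc => by
        obtain ⟨d, hd, e⟩ := htr (σ c x)
        have := hfix (d⁻¹ * c) (mul_mem (inv_mem (hAC hd)) hc) (by simp [← e])
        rw [← inv_mul_eq_one.1 this]; exact hd
      have h1 : Nat.card A ≤ Nat.card Ω := Nat.card_le_card_of_injective (fun a : A => σ a x)
        fun a c e => Subtype.ext (inv_mul_eq_one.1 (hfix _ (hAC (a⁻¹ * c).2) (by
          simp only at e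
          simp [← e])))
      have h2 : 2 ≤ Nat.card A := (one_lt_card_iff_ne_bot A).2 hA1
      have h3 := hN.kk (cjRep A) (ss_cjRep A fun S hS hle => by
        rcases hmin S hS hle with rfl | rfl
        · exact ⟨A, hA, le_rfl, bot_inf_eq _, le_sup_right⟩
        · exact ⟨⊥, inferInstance, bot_le, inf_bot_eq _, le_sup_left⟩) h2
        (h1.trans (hn.trans hm)) trivial
      have h4 := kk_le_quot (cjRep A).ker
      have h5 : kk (cjRep A).ker ≤ Nat.card A := (kk_le_card _).trans
        (card_le_of_le ((ker_cjRep A).le.trans hCA))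
      have h6 := hb _ h2
      change _ ≤ b (Nat.card A) at h3
      calc kk G * 3 ≤ b (Nat.card A) * Nat.card A * 3 :=
            Nat.mul_le_mul_right _ (h4.trans (Nat.mul_le_mul h3 h5))
        _ ≤ Nat.card A ^ 3 := by nlinarith
        _ ≤ 3 ^ Nat.card A := cube_le_three_pow _
        _ ≤ _ := Nat.pow_le_pow_right (by norm_num) h1
    · let τ : G →* Equiv.Perm (Set.range orb) := mkP (fun g S => ⟨σ g '' S.1, by
        obtain ⟨_, y, rfl⟩ := S
        exact ⟨_, (horb g y).symm⟩⟩) (fun S => Subtype.ext (by simp))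
        fun g k S => Subtype.ext (by simp [Set.image_image])
      have hlt : Nat.card (Set.range orb) < Nat.card Ω := by
        refine lt_of_le_of_ne (Nat.card_le_card_of_surjective φ' hφ') fun e => hx ?_
        exact ((Nat.bijective_iff_surjective_and_card φ').2 ⟨hφ', e.symm⟩).1
          (Subtype.ext (horbA a ha x))
      have h1 := ih.one τ (by omega)
      have h2 := pb_split ih (σ.comp τ.ker.subtype) φ' (hσ.comp τ.ker.subtype_injective) hφ'
        (fun g y => Subtype.ext ((horb g y).symm.trans (congrArg Subtype.val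
          (Equiv.congr_fun (MonoidHom.mem_ker.1 g.2) (φ' y))))) hn
      calc kk G * 3 ≤ kk τ.range * kk τ.ker * 3 := Nat.mul_le_mul_right _ (kk_le_range τ)
        _ = kk τ.ker * (kk τ.range * 3) := by ring
        _ ≤ _ := (Nat.mul_le_mul_left _ h1).trans h2

section Dec

variable {ε : Prop} {P : ℕ → Prop} {b : ℕ → ℕ} {n : ℕ}

theorem multi (h : Bd.{u} ε P b n) {V : Type u} [AddCommGroup V] [Finite V]
    (s : Finset (Submodule ℤ V)) (hs : s.SupIndep id)
    (hc : ∀ U ∈ s, 2 ≤ Nat.card U ∧ Nat.card U ≤ n ∧ P (Nat.card U)) :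
    ∀ (G : Type u) [Group G] [Finite G] [Group.IsSolvable G] (ρ : Rp G V), SS ρ →
      (∀ U ∈ s, Inv ρ U) → (∀ g, (∀ v ∈ s.sup id, ρ g v = v) → g = 1) →
      TT ε ρ (s.sup id) ≤ (∏ U ∈ s, b (Nat.card U)) * Nat.card G := by
  classical
  induction s using Finset.induction_on with
  | empty =>
    intro G _ _ _ ρ _ _ hf
    haveI : Subsingleton G := ⟨fun a c => by
      have : ∀ g : G, g = 1 := fun g => hf g fun v hv => by
        rw [show v = 0 from hv, map_zero]
      rw [this a, this c]⟩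
    rw [TT_of_zero _ fun v hv _ => hv, Finset.prod_empty]
    exact Nat.mul_le_mul_right _ ((kk_le_card G).trans_eq Nat.card_unique)
  | insert U t hU ih =>
    intro G _ _ _ ρ hss hi hf
    have hU' := Finset.mem_insert_self U t
    have hiU := hi U hU'
    rw [Finset.sup_insert, Finset.prod_insert hU] at *
    refine (TT_sup ρ hiU (inv_finset_sup fun W hW => hi W (Finset.mem_insert_of_mem hW))
      (hs (Finset.subset_insert U t) hU' hU)).trans ?_
    have h1 := h _ U (qr (sub ρ U hiU)) (fa_qr _) (hss.sub hiU).qr (hc U hU').1 (hc U hU').2.1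
      (hc U hU').2.2
    have h2 := ih (hs.subset (Finset.subset_insert U t))
      (fun W hW => hc W (Finset.mem_insert_of_mem hW)) _ (ρ.comp (sub ρ U hiU).ker.subtype)
      (hss.normal _) (fun W hW g => hi W (Finset.mem_insert_of_mem hW) g)
      fun g hg => Subtype.ext (hf g fun v hv => by
        obtain ⟨x, hx, y, hy, rfl⟩ := Submodule.mem_sup.1 hv
        rw [map_add, show ρ g y = y from hg y hy,
          show ρ g x = x from congrArg Subtype.val (mem_ker_iff.1 g.2 ⟨x, hx⟩)])
    refine (Nat.mul_le_mul h1 h2).trans_eq ?_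
    rw [card_eq_card_quotient_mul_card_subgroup (sub ρ U hiU).ker]
    ring

theorem prod_bound (hP : ∀ x y, P (x * y) → P y)
    (hb : ∀ x y, 2 ≤ x → 2 ≤ y → P (x * y) → 3 * b x * b y ≤ b (x * y)) {ι : Type*}
    (c : ι → ℕ) (s : Finset ι) (hs : s.Nonempty) (h2 : ∀ i ∈ s, 2 ≤ c i) (h : P (∏ i ∈ s, c i)) :
    3 ^ s.card * ∏ i ∈ s, b (c i) ≤ 3 * b (∏ i ∈ s, c i) := by
  induction hs using Finset.Nonempty.cons_induction with
  | singleton i => simp
  | cons i t hi ht ih =>
    rw [Finset.prod_cons] at h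
    have h2' : ∀ j ∈ t, 2 ≤ c j := fun j hj => h2 j (Finset.mem_cons_of_mem hj)
    have h3 : 2 ≤ ∏ j ∈ t, c j := by
      obtain ⟨j, hj⟩ := ht
      exact (h2' j hj).trans (Finset.single_le_prod' (fun l hl => (h2' l hl).trans' one_le_two) hj)
    have := hb _ _ (h2 i (Finset.mem_cons_self i t)) h3 h
    rw [Finset.card_cons, Finset.prod_cons, Finset.prod_cons]
    calc 3 ^ (t.card + 1) * (b (c i) * ∏ j ∈ t, b (c j))
        = 3 * b (c i) * (3 ^ t.card * ∏ j ∈ t, b (c j)) := by ring
      _ ≤ 3 * b (c i) * (3 * b (∏ j ∈ t, c j)) := Nat.mul_le_mul_left _ (ih h2' (hP _ _ h))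
      _ ≤ _ := by nlinarith

/-- A direct decomposition permuted by the group. -/
def Dec {G V : Type*} [Group G] [AddCommGroup V] (ρ : Rp G V) : Prop :=
  ∃ s : Finset (Submodule ℤ V), 2 ≤ s.card ∧ (∀ U ∈ s, U ≠ ⊥) ∧ s.SupIndep id ∧ s.sup id = ⊤ ∧
    ∀ g, ∀ U ∈ s, U.map (ρ g) ∈ s

theorem two_le_card_of_ne_bot {V : Type*} [AddCommGroup V] [Finite V] {U : Submodule ℤ V}
    (h : U ≠ ⊥) : 2 ≤ Nat.card U :=
  Finite.one_lt_card_iff_nontrivial.2 (Submodule.nontrivial_iff_ne_bot.2 h)

theorem dec_step (hP : ∀ x y, P (x * y) → P y)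
    (hb : ∀ x y, 2 ≤ x → 2 ≤ y → P (x * y) → 3 * b x * b y ≤ b (x * y)) (h : Bd.{u} ε P b n)
    (hp : PBS.{u} n) {G V : Type u} [Group G] [Finite G] [Group.IsSolvable G] [AddCommGroup V]
    [Finite V] (ρ : Rp G V) (hf : Fa ρ) (hss : SS ρ) (hn : Nat.card V ≤ n + 1)
    (hPV : P (Nat.card V)) (hd : Dec ρ) : TT ε ρ ⊤ ≤ b (Nat.card V) * Nat.card G := by
  classical
  obtain ⟨s, hs2, hs0, hsi, hst, hsg⟩ := hd
  have h2 : ∀ U ∈ s, 2 ≤ Nat.card U := fun U hU => two_le_card_of_ne_bot (hs0 U hU)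
  have hV : Nat.card V = ∏ U ∈ s, Nat.card U := by
    have := card_finset_sup hsi
    rwa [hst, Nat.card_congr Submodule.topEquiv.toEquiv] at this
  have hne : s.Nonempty := Finset.card_pos.1 (by omega)
  have hc : ∀ U ∈ s, 2 ≤ Nat.card U ∧ Nat.card U ≤ n ∧ P (Nat.card U) := fun U hU => by
    rw [hV, ← Finset.prod_erase_mul _ _ hU] at hn hPV
    refine ⟨h2 U hU, ?_, hP _ _ hPV⟩
    have := Finset.pow_card_le_prod (s.erase U) (fun U => Nat.card U) 2
      fun W hW => h2 W (Finset.mem_of_mem_erase hW)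
    rw [Finset.card_erase_of_mem hU] at this
    have e := (Nat.pow_le_pow_right two_pos (show 1 ≤ s.card - 1 by omega)).trans this
    have := h2 U hU
    nlinarith
  let τ : G →* Equiv.Perm s := mkP (fun g U => ⟨U.1.map (ρ g), hsg g U.1 U.2⟩)
    (fun U => Subtype.ext (map_rp_one ρ U.1)) fun g k U => Subtype.ext (map_map_rp ρ g k U.1).symm
  haveI : Nonempty s := hne.to_subtype
  have h1 := hp.one τ (by
    have := Finset.pow_card_le_prod s (fun U => Nat.card U) 2 h2
    have := Nat.lt_two_pow_self (n := s.card)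
    rw [Nat.card_eq_finsetCard]
    omega)
  have h3 := multi h s hsi hc τ.rangeRestrict.ker (ρ.comp τ.rangeRestrict.ker.subtype)
    (hss.normal _) (fun U hU g u hu => by
      have : U.map (ρ g) = U := congrArg Subtype.val (Equiv.congr_fun
        (congrArg Subtype.val (MonoidHom.mem_ker.1 g.2) : τ g = 1) ⟨U, hU⟩)
      rw [← this]
      exact ⟨u, hu, rfl⟩) fun g hg => Subtype.ext (hf g fun v => hg v (by rw [hst]; trivial))
  have h4 := TT_le_ker (ε := ε) ρ ⊤ τ.rangeRestrict
  have h5 := prod_bound hP hb (fun U : Submodule ℤ V => Nat.card U) s hne h2 (hV ▸ hPV)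
  rw [hst] at h3
  rw [Nat.card_eq_finsetCard] at h1
  rw [card_eq_mul_ker τ.rangeRestrict τ.rangeRestrict_surjective, hV]
  refine Nat.le_of_mul_le_mul_left ?_ three_pos
  calc 3 * TT ε ρ ⊤ ≤ 3 * (kk τ.range * Nat.card τ.range *
        ((∏ U ∈ s, b (Nat.card U)) * Nat.card τ.rangeRestrict.ker)) :=
        Nat.mul_le_mul_left _ (h4.trans (Nat.mul_le_mul_left _ h3))
    _ = kk τ.range * 3 * (∏ U ∈ s, b (Nat.card U)) *
        (Nat.card τ.range * Nat.card τ.rangeRestrict.ker) := by ring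
    _ ≤ 3 * b (∏ U ∈ s, Nat.card U) * (Nat.card τ.range * Nat.card τ.rangeRestrict.ker) :=
        Nat.mul_le_mul_right _ ((Nat.mul_le_mul_right _ h1).trans h5)
    _ = _ := by ring

end Dec

end Cfsg.Agent.KR
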