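import Cfsg.Agent.Lib.KR.Count

/-! Semisimple actions on finite abelian groups and the count of fixed commuting pairs. -/

set_option autoImplicit false
set_option linter.unusedSectionVars false
set_option linter.style.haveILetI false

namespace Cfsg.Agent.KR

open Subgroup

/-- Integral representations. -/
abbrev Rp (G V : Type*) [Group G] [AddCommGroup V] := Representation ℤ G V

section Basic

variable {G H V : Type*} [Group G] [Group H] [AddCommGroup V]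

theorem rp_mul (ρ : Rp G V) (g h : G) (v : V) : ρ (g * h) v = ρ g (ρ h v) := by
  rw [map_mul]; rfl

theorem rp_one (ρ : Rp G V) (v : V) : ρ 1 v = v := by rw [map_one]; rfl

theorem rp_inv_self (ρ : Rp G V) (g : G) (v : V) : ρ g⁻¹ (ρ g v) = v := by
  rw [← rp_mul, inv_mul_cancel, rp_one]

theorem rp_self_inv (ρ : Rp G V) (g : G) (v : V) : ρ g (ρ g⁻¹ v) = v := by
  rw [← rp_mul, mul_inv_cancel, rp_one]

theorem rp_inj (ρ : Rp G V) (g : G) : Function.Injective (ρ g) := fun a b h => by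
  rw [← rp_inv_self ρ g a, h, rp_inv_self]

theorem rp_eq_zero (ρ : Rp G V) (g : G) {v : V} (h : ρ g v = 0) : v = 0 :=
  rp_inj ρ g (h.trans (map_zero _).symm)

/-- Invariant submodules. -/
def Inv (ρ : Rp G V) (U : Submodule ℤ V) : Prop := ∀ g, ∀ u ∈ U, ρ g u ∈ U

/-- Semisimple actions. -/
def SS (ρ : Rp G V) : Prop := ∀ U, Inv ρ U → ∃ U', Inv ρ U' ∧ IsCompl U U'

/-- Faithful actions. -/
def Fa (ρ : Rp G V) : Prop := ∀ g, (∀ v, ρ g v = v) → g = 1

/-- The stabilizer of a vector. -/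
def stb (ρ : Rp G V) (v : V) : Subgroup G where
  carrier := {g | ρ g v = v}
  mul_mem' {a b} (ha : ρ a v = v) (hb : ρ b v = v) := show ρ (a * b) v = v by rw [rp_mul, hb, ha]
  one_mem' := rp_one ρ v
  inv_mem' {a} (ha : ρ a v = v) := show ρ a⁻¹ v = v by
    conv_lhs => rw [← ha]
    exact rp_inv_self ρ a v

theorem mem_stb {ρ : Rp G V} {v : V} {g : G} : g ∈ stb ρ v ↔ ρ g v = v := Iff.rfl

/-- The number of triples `(g, h, v)` with `g, h` commuting and fixing `v ∈ U` (and `v = 0` if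
`ε` holds). -/
noncomputable def TT (ε : Prop) (ρ : Rp G V) (U : Submodule ℤ V) : ℕ :=
  ∑ᶠ v : {v // v ∈ U ∧ (ε → v = 0)}, pr (stb ρ v.1 : Set G) (stb ρ v.1)

/-- The action on an invariant submodule. -/
def sub (ρ : Rp G V) (U : Submodule ℤ V) (hU : Inv ρ U) : Rp G U :=
  ρ.subrepresentation U fun g u hu => hU g u hu

theorem sub_apply (ρ : Rp G V) (U : Submodule ℤ V) (hU : Inv ρ U) (g : G) (u : U) :
    (sub ρ U hU g u : V) = ρ g u := rfl

/-- The action of the quotient by the kernel. -/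
def qr (ρ : Rp G V) : Rp (G ⧸ ρ.ker) V := QuotientGroup.lift ρ.ker ρ fun _ hx => hx

theorem qr_mk (ρ : Rp G V) (g : G) : qr ρ (g : G ⧸ ρ.ker) = ρ g := rfl

theorem mem_ker_iff {ρ : Rp G V} {g : G} : g ∈ ρ.ker ↔ ∀ v, ρ g v = v :=
  ⟨fun h v => by rw [MonoidHom.mem_ker.1 h]; rfl, fun h => LinearMap.ext h⟩

theorem fa_qr (ρ : Rp G V) : Fa (qr ρ) := fun g hg => by
  obtain ⟨g, rfl⟩ := QuotientGroup.mk_surjective g
  exact (QuotientGroup.eq_one_iff g).2 (mem_ker_iff.2 hg)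

theorem SS.qr {ρ : Rp G V} (h : SS ρ) : SS (qr ρ) := fun U hU => by
  obtain ⟨U', h1, h2⟩ := h U fun g u hu => hU g u hu
  refine ⟨U', fun g u hu => ?_, h2⟩
  obtain ⟨g, rfl⟩ := QuotientGroup.mk_surjective g
  exact h1 g u hu

theorem SS.sub {ρ : Rp G V} (h : SS ρ) {U : Submodule ℤ V} (hU : Inv ρ U) : SS (sub ρ U hU) := by
  intro W hW
  obtain ⟨C, h1, h2⟩ := h (W.map U.subtype) (by
    rintro g _ ⟨w, hw, rfl⟩
    exact ⟨_, hW g w hw, rfl⟩)
  refine ⟨C.comap U.subtype, fun g u hu => h1 g u hu, ?_, ?_⟩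
  · rw [Submodule.disjoint_def]
    intro x hx hx'
    exact Subtype.ext (Submodule.disjoint_def.1 h2.disjoint x ⟨x, hx, rfl⟩ hx')
  · rw [codisjoint_iff, eq_top_iff]
    intro x _
    have : (x : V) ∈ W.map U.subtype ⊔ C := by rw [h2.sup_eq_top]; trivial
    obtain ⟨_, ⟨w, hw, rfl⟩, c, hc, e⟩ := Submodule.mem_sup.1 this
    refine Submodule.mem_sup.2 ⟨w, hw, x - w, ?_, by abel⟩
    change (x : V) - w ∈ C
    rw [← e]
    simpa using hc

theorem inv_bot (ρ : Rp G V) : Inv ρ ⊥ := fun g u hu => by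
  rw [(Submodule.mem_bot ℤ).1 hu, map_zero]; exact Submodule.zero_mem _

theorem inv_top (ρ : Rp G V) : Inv ρ ⊤ := fun _ _ _ => trivial

theorem Inv.inf {ρ : Rp G V} {U W : Submodule ℤ V} (h : Inv ρ U) (h' : Inv ρ W) :
    Inv ρ (U ⊓ W) := fun g u hu => ⟨h g u hu.1, h' g u hu.2⟩

theorem Inv.sup {ρ : Rp G V} {U W : Submodule ℤ V} (h : Inv ρ U) (h' : Inv ρ W) :
    Inv ρ (U ⊔ W) := fun g u hu => by
  obtain ⟨a, ha, b, hb, rfl⟩ := Submodule.mem_sup.1 hu
  rw [map_add]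
  exact Submodule.add_mem_sup (h g a ha) (h' g b hb)

theorem inv_finset_sup {ρ : Rp G V} {ι : Type*} {s : Finset ι} {U : ι → Submodule ℤ V}
    (h : ∀ i ∈ s, Inv ρ (U i)) : Inv ρ (s.sup U) :=
  Finset.sup_induction (inv_bot ρ) (fun _ ha _ hb => ha.sup hb) h

theorem inv_sSup {ρ : Rp G V} {S : Set (Submodule ℤ V)}
    (h : ∀ g, ∀ U ∈ S, U.map (ρ g) ∈ S) : Inv ρ (sSup S) := fun g u hu => by
  have : (sSup S).map (ρ g) ≤ sSup S := by
    rw [Submodule.map_le_iff_le_comap]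
    exact sSup_le fun U hU => Submodule.map_le_iff_le_comap.1 (le_sSup (h g U hU))
  exact this ⟨u, hu, rfl⟩

theorem map_map_rp (ρ : Rp G V) (g h : G) (U : Submodule ℤ V) :
    (U.map (ρ h)).map (ρ g) = U.map (ρ (g * h)) := by
  rw [← Submodule.map_comp, map_mul]; rfl

theorem map_rp_one (ρ : Rp G V) (U : Submodule ℤ V) : U.map (ρ 1) = U := by
  rw [map_one]; exact Submodule.map_id U

theorem map_rp_ne_bot (ρ : Rp G V) (g : G) {U : Submodule ℤ V} (h : U ≠ ⊥) : U.map (ρ g) ≠ ⊥ :=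
  fun e => h (by rw [← map_rp_one ρ U, ← inv_mul_cancel g, ← map_map_rp, e, Submodule.map_bot])

/-- Minimal elements of a conjugation-stable family are permuted. -/
theorem minimal_map (ρ : Rp G V) {P : Submodule ℤ V → Prop}
    (hP : ∀ g U, P U → P (U.map (ρ g))) (g : G) {U : Submodule ℤ V} (h : Minimal P U) :
    Minimal P (U.map (ρ g)) := by
  refine ⟨hP g U h.1, fun W hW hle => ?_⟩
  have := h.2 (hP g⁻¹ W hW) (by
    have := Submodule.map_mono (f := ρ g⁻¹) hle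
    rwa [map_map_rp, inv_mul_cancel, map_rp_one] at this)
  have := Submodule.map_mono (f := ρ g) this
  rwa [map_map_rp, mul_inv_cancel, map_rp_one] at this

instance finite_submodule [Finite V] : Finite (Submodule ℤ V) :=
  Finite.of_injective _ SetLike.coe_injective

/-- **Clifford's theorem**. -/
theorem SS.normal [Finite V] {ρ : Rp G V} (h : SS ρ) (N : Subgroup G) [hN : N.Normal] :
    SS (ρ.comp N.subtype) := by
  let P : Submodule ℤ V → Prop := fun U => U ≠ ⊥ ∧ Inv (ρ.comp N.subtype) U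
  have hP : ∀ g U, P U → P (U.map (ρ g)) := fun g U hU => ⟨map_rp_ne_bot ρ g hU.1, by
    rintro n _ ⟨u, hu, rfl⟩
    refine ⟨_, hU.2 ⟨g⁻¹ * n * g, by simpa using hN.conj_mem _ n.2 g⁻¹⟩ u hu, ?_⟩
    change ρ g (ρ (g⁻¹ * n * g) u) = ρ n (ρ g u)
    rw [← rp_mul, ← rp_mul]
    congr 2
    group⟩
  have htop : sSup {U | Minimal P U} = ⊤ := by
    obtain ⟨C, h1, h2⟩ := h _ (inv_sSup (S := {U | Minimal P U})
      fun g U hU => minimal_map ρ hP g hU)
    by_contra hne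
    have hC : C ≠ ⊥ := fun e => hne (by have := h2.sup_eq_top; rwa [e, sup_bot_eq] at this)
    obtain ⟨U, hU, hm⟩ := exists_minimal_le_of_wellFoundedLT P C ⟨hC, fun n => h1 n⟩
    exact hm.1.1 (le_bot_iff.1 (h2.disjoint (le_sSup (s := {U | Minimal P U}) hm) hU))
  intro U hU
  obtain ⟨C, hC⟩ := exists_maximal_of_wellFoundedGT
    (fun C => Inv (ρ.comp N.subtype) C ∧ Disjoint U C) ⟨⊥, inv_bot _, disjoint_bot_right⟩
  refine ⟨C, hC.1.1, hC.1.2, ?_⟩
  rw [codisjoint_iff, eq_top_iff, ← htop]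
  refine sSup_le fun M hM => ?_
  by_contra hle
  have h1 : M ⊓ (U ⊔ C) = ⊥ := by
    by_contra hne
    exact hle ((hM.2 ⟨hne, hM.1.2.inf (hU.sup hC.1.1)⟩ inf_le_left).trans inf_le_right)
  have h2 : Disjoint U (C ⊔ M) :=
    hC.1.2.disjoint_sup_right_of_disjoint_sup_left (by rw [disjoint_comm, disjoint_iff]; exact h1)
  have h3 := hC.2 ⟨hC.1.1.sup hM.1.2, h2⟩ le_sup_left
  exact hle ((le_sup_right.trans h3).trans le_sup_right)

theorem supIndep_of_sep {K M ι : Type*} [Ring K] [AddCommGroup M] [Module K M] (s : Finset ι)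
    (U : ι → Submodule K M) (h : ∀ i ∈ s, ∀ j ∈ s, i ≠ j → ∃ f : M →+ M,
      (∀ l ∈ s, ∀ u ∈ U l, f u ∈ U l) ∧ (∀ u ∈ U j, f u = 0) ∧ ∀ u ∈ U i, f u = 0 → u = 0) :
    s.SupIndep U := by
  classical
  intro t ht i hi hit
  induction t using Finset.induction_on with
  | empty => simp
  | insert j t hj ih =>
    have ht' : t ⊆ s := (Finset.subset_insert j t).trans ht
    obtain ⟨f, f1, f2, f3⟩ := h i hi j (ht (Finset.mem_insert_self j t))
      fun e => hit (e ▸ Finset.mem_insert_self j t)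
    have ih' := ih ht' fun e => hit (Finset.mem_insert_of_mem e)
    have f4 : ∀ u ∈ t.sup U, f u ∈ t.sup U := by
      have : ∀ r : Finset ι, r ⊆ t → ∀ u ∈ r.sup U, f u ∈ t.sup U := fun r hr =>
        Finset.sup_induction (p := fun W : Submodule K M => ∀ u ∈ W, f u ∈ t.sup U)
          (fun u hu => by rw [(Submodule.mem_bot K).1 hu, map_zero]; exact Submodule.zero_mem _)
          (fun a ha b hb u hu => by
            obtain ⟨x, hx, y, hy, rfl⟩ := Submodule.mem_sup.1 hu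
            rw [map_add]
            exact Submodule.add_mem _ (ha x hx) (hb y hy))
          fun l hl u hu => Finset.le_sup (f := U) (hr hl) (f1 l (ht' (hr hl)) u hu)
      exact this t le_rfl
    rw [Finset.sup_insert, Submodule.disjoint_def]
    intro u hu hu'
    obtain ⟨x, hx, y, hy, rfl⟩ := Submodule.mem_sup.1 hu'
    refine f3 _ hu (Submodule.disjoint_def.1 ih' _ (f1 i hi _ hu) ?_)
    rw [map_add, f2 x hx, zero_add]
    exact f4 y hy

theorem card_sup_of_disjoint {K M : Type*} [Ring K] [AddCommGroup M] [Module K M]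
    {U W : Submodule K M} (h : Disjoint U W) :
    Nat.card (U ⊔ W : Submodule K M) = Nat.card U * Nat.card W := by
  rw [← Nat.card_prod]
  refine (Nat.card_congr (Equiv.ofBijective
    (fun p : U × W => (⟨p.1 + p.2, Submodule.add_mem_sup p.1.2 p.2.2⟩ : (U ⊔ W : Submodule K M)))
    ⟨?_, ?_⟩)).symm
  · rintro ⟨a, b⟩ ⟨c, d⟩ e
    have e' : (a : M) + b = c + d := congrArg Subtype.val e
    have h1 : (a : M) - c = d - b := by rw [sub_eq_sub_iff_add_eq_add, e', add_comm]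
    have h2 := Submodule.disjoint_def.1 h _ (U.sub_mem a.2 c.2) (h1 ▸ W.sub_mem d.2 b.2)
    rw [h2] at h1
    exact Prod.ext (Subtype.ext (sub_eq_zero.1 h2)) (Subtype.ext (sub_eq_zero.1 h1.symm).symm)
  · rintro ⟨x, hx⟩
    obtain ⟨a, ha, b, hb, rfl⟩ := Submodule.mem_sup.1 hx
    exact ⟨(⟨a, ha⟩, ⟨b, hb⟩), rfl⟩

theorem card_finset_sup {K M ι : Type*} [Ring K] [AddCommGroup M] [Module K M] {s : Finset ι}
    {U : ι → Submodule K M} (h : s.SupIndep U) :
    Nat.card (s.sup U : Submodule K M) = ∏ i ∈ s, Nat.card (U i) := by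
  classical
  induction s using Finset.induction_on with
  | empty => simp
  | insert j t hj ih =>
    rw [Finset.sup_insert, Finset.prod_insert hj, card_sup_of_disjoint
      (h (Finset.subset_insert j t) (Finset.mem_insert_self j t) hj),
      ih (h.subset (Finset.subset_insert j t))]

theorem finsum_le_of_inj {A B : Type*} [Finite A] [Finite B] (φ : A → B)
    (hφ : Function.Injective φ) (f : A → ℕ) (g : B → ℕ) (h : ∀ a, f a ≤ g (φ a)) :
    ∑ᶠ a, f a ≤ ∑ᶠ b, g b := by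
  classical
  haveI := Fintype.ofFinite A
  haveI := Fintype.ofFinite B
  rw [finsum_eq_sum_of_fintype, finsum_eq_sum_of_fintype]
  refine (Finset.sum_le_sum fun a _ => h a).trans ?_
  rw [← Finset.sum_image (s := Finset.univ) (g := φ) (f := g) fun a _ b _ e => hφ e]
  exact Finset.sum_le_sum_of_subset (Finset.subset_univ _)

variable [Finite G] [Finite H] [Finite V] {ε : Prop}

theorem TT_of_zero (ρ : Rp G V) {U : Submodule ℤ V} (h : ∀ v ∈ U, (ε → v = 0) → v = 0) :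
    TT ε ρ U = kk G * Nat.card G := by
  haveI : Unique {v // v ∈ U ∧ (ε → v = 0)} :=
    ⟨⟨⟨0, U.zero_mem, fun _ => rfl⟩⟩, fun v => Subtype.ext (h v.1 v.2.1 v.2.2)⟩
  rw [TT, finsum_unique, ← pr_univ]
  have : ∀ v : {v // v ∈ U ∧ (ε → v = 0)}, (stb ρ v.1 : Set G) = Set.univ := fun v => by
    rw [h v.1 v.2.1 v.2.2]
    exact Set.eq_univ_of_forall fun g => map_zero (ρ g)
  rw [this]

theorem pr_stb_ker (ρ : Rp G V) (N : Subgroup G) (v : V) {S : Subgroup G} (hS : S ≤ stb ρ v ⊓ N) :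
    pr (S : Set G) S ≤ pr (stb (ρ.comp N.subtype) v : Set N) (stb (ρ.comp N.subtype) v) :=
  pr_le_of_lift N.subtype N.subtype_injective (fun x hx => ⟨⟨x, (hS hx).2⟩, (hS hx).1, rfl⟩)
    fun x hx => ⟨⟨x, (hS hx).2⟩, (hS hx).1, rfl⟩

theorem TT_le_ker (ρ : Rp G V) (U : Submodule ℤ V) (f : G →* H) :
    TT ε ρ U ≤ kk H * Nat.card H * TT ε (ρ.comp f.ker.subtype) U := by
  haveI := Fintype.ofFinite {v // v ∈ U ∧ (ε → v = 0)}
  rw [TT, TT, finsum_eq_sum_of_fintype, finsum_eq_sum_of_fintype, Finset.mul_sum, ← pr_univ]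
  exact Finset.sum_le_sum fun v _ => (pr_prod f _ (Set.mapsTo_univ _ _)).trans
    (Nat.mul_le_mul_left _ (pr_stb_ker ρ _ _ le_rfl))

theorem TT_sup (ρ : Rp G V) {U W : Submodule ℤ V} (hU : Inv ρ U) (hW : Inv ρ W)
    (h : Disjoint U W) : TT ε ρ (U ⊔ W) ≤
      TT ε (qr (sub ρ U hU)) ⊤ * TT ε (ρ.comp (sub ρ U hU).ker.subtype) W := by
  haveI := Fintype.ofFinite {v // v ∈ W ∧ (ε → v = 0)}
  haveI := Fintype.ofFinite {v : U // v ∈ (⊤ : Submodule ℤ U) ∧ (ε → v = 0)}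
  have hex : ∀ v : {v // v ∈ U ⊔ W ∧ (ε → v = 0)},
      ∃ p : {v : U // v ∈ (⊤ : Submodule ℤ U) ∧ (ε → v = 0)} × {v // v ∈ W ∧ (ε → v = 0)},
        p.1.1.1 + p.2.1 = v.1 := fun v => by
    by_cases e : ε
    · exact ⟨(⟨0, trivial, fun _ => rfl⟩, ⟨0, W.zero_mem, fun _ => rfl⟩), by simp [v.2.2 e]⟩
    · obtain ⟨a, ha, b, hb, e'⟩ := Submodule.mem_sup.1 v.2.1
      exact ⟨(⟨⟨a, ha⟩, trivial, fun h => (e h).elim⟩, ⟨b, hb, fun h => (e h).elim⟩), e'⟩
  choose φ hφ using hex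
  rw [TT, TT, TT, finsum_eq_sum_of_fintype (α := {v // v ∈ W ∧ (ε → v = 0)}),
    finsum_eq_sum_of_fintype (α := {v : U // v ∈ (⊤ : Submodule ℤ U) ∧ (ε → v = 0)}),
    Finset.sum_mul_sum, ← Fintype.sum_prod_type', ← finsum_eq_sum_of_fintype]
  refine finsum_le_of_inj φ (fun a b e => Subtype.ext (by rw [← hφ, ← hφ, e])) _ _ fun v => ?_
  have key : ∀ g ∈ stb ρ v.1, ρ g (φ v).1.1.1 = (φ v).1.1.1 ∧ ρ g (φ v).2.1 = (φ v).2.1 := by
    intro g hg
    have e : ρ g v.1 = v.1 := hg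
    rw [← hφ v, map_add] at e
    have h1 : ρ g (φ v).1.1.1 - (φ v).1.1.1 = (φ v).2.1 - ρ g (φ v).2.1 := by
      rw [sub_eq_sub_iff_add_eq_add, e, add_comm]
    have h2 := Submodule.disjoint_def.1 h _ (U.sub_mem (hU g _ (φ v).1.1.2) (φ v).1.1.2)
      (h1 ▸ W.sub_mem (φ v).2.2.1 (hW g _ (φ v).2.2.1))
    rw [h2] at h1
    exact ⟨sub_eq_zero.1 h2, (sub_eq_zero.1 h1.symm).symm⟩
  refine (pr_prod (QuotientGroup.mk' (sub ρ U hU).ker) (stb ρ v.1)
    (T := stb (qr (sub ρ U hU)) (φ v).1.1) fun g hg => Subtype.ext (key g hg).1).trans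
    (Nat.mul_le_mul_left _ (pr_stb_ker ρ _ _ fun g hg => ⟨(key g hg.1).2, ?_⟩))
  have := hg.2
  rwa [QuotientGroup.ker_mk'] at this

end Basic

end Cfsg.Agent.KR
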