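import Cfsg.Agent.Lib.KR.Fld
import Cfsg.Agent.Lib.Fit.Core

/-! The symplectic-type normal subgroup of a solvable group with cyclic maximal abelian normal
subgroup. -/

set_option autoImplicit false
set_option linter.unusedSectionVars false
set_option linter.style.haveILetI false

namespace Cfsg.Agent.KR

open Subgroup Module

variable {G : Type*} [Group G]

/-- The commutator map into a subgroup centralized by the domain. -/
def cmH {Z D : Subgroup G} (hD : D ≤ centralizer (Z : Set G)) (c : G)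
    (h : ∀ d ∈ D, c * d * c⁻¹ * d⁻¹ ∈ Z) : D →* Z :=
  MonoidHom.mk' (fun d => ⟨_, h d d.2⟩) fun a b => Subtype.ext (by
    have := hD a.2 _ (h b b.2)
    change c * (a * b : G) * c⁻¹ * (a * b : G)⁻¹ = c * a * c⁻¹ * (a : G)⁻¹ * (c * b * c⁻¹ * (b : G)⁻¹)
    calc _ = c * a * c⁻¹ * (a : G)⁻¹ * (a * (c * b * c⁻¹ * (b : G)⁻¹)) * (a : G)⁻¹ := by group
      _ = _ := by rw [← this]; group)

theorem sup_le_cent {A B : Subgroup G} (hA : A ≤ centralizer (A : Set G))
    (hB : B ≤ centralizer (B : Set G)) (h : A ≤ centralizer (B : Set G)) :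
    A ⊔ B ≤ centralizer ((A ⊔ B : Subgroup G) : Set G) :=
  sup_le (le_centralizer_iff.1 (sup_le hA (le_centralizer_iff.1 h)))
    (le_centralizer_iff.1 (sup_le h hB))

theorem inf_cent_le (A : Subgroup G) : A ⊓ centralizer (A : Set G) ≤
    centralizer ((A ⊓ centralizer (A : Set G) : Subgroup G) : Set G) :=
  inf_le_right.trans (centralizer_le fun _ h => h.1)

theorem relIndex_congr {H K L : Subgroup G} (h : ∀ x ∈ L, x ∈ H ↔ x ∈ K) :
    H.relIndex L = K.relIndex L := by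
  rw [← inf_relIndex_right H, ← inf_relIndex_right K]
  congr 1
  ext x
  exact and_congr_left (h x)

variable [Finite G]

theorem relIndex_pos (H L : Subgroup G) : 0 < H.relIndex L :=
  Nat.pos_of_ne_zero FiniteIndex.index_ne_zero

theorem pair {K : Type*} [Field K] {Z C D : Subgroup G} (θ : Z →* K) (hθ : Function.Injective θ)
    (hD : D ≤ centralizer (Z : Set G)) (h : ∀ c ∈ C, ∀ d ∈ D, c * d * c⁻¹ * d⁻¹ ∈ Z) :
    (centralizer (D : Set G)).relIndex C ≤ (centralizer (C : Set G)).relIndex D := by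
  haveI := Fintype.ofFinite (C ⧸ (centralizer (D : Set G)).subgroupOf C)
  haveI := Fintype.ofFinite (D ⧸ (centralizer (C : Set G)).subgroupOf D)
  let χ : C → D →* K := fun c => θ.comp (cmH hD c (h c c.2))
  have h1 := (linearIndependent_monoidHom D K).comp
    (fun i : C ⧸ (centralizer (D : Set G)).subgroupOf C => χ i.out) fun i j e => by
      rw [← i.out_eq, ← j.out_eq]
      refine QuotientGroup.eq.2 fun b hb => ?_
      have : (i.out : G) * b * (i.out : G)⁻¹ * b⁻¹ = j.out * b * (j.out : G)⁻¹ * b⁻¹ :=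
        (congrArg Subtype.val (hθ (DFunLike.congr_fun e ⟨b, hb⟩)) :)
      change b * ((i.out : G)⁻¹ * j.out) = (i.out : G)⁻¹ * j.out * b
      calc b * ((i.out : G)⁻¹ * j.out)
          = (i.out : G)⁻¹ * (i.out * b * (i.out : G)⁻¹ * b⁻¹) * b * j.out := by group
        _ = _ := by rw [this]; group
  have h2 : LinearIndependent K fun (i : C ⧸ (centralizer (D : Set G)).subgroupOf C)
      (q : D ⧸ (centralizer (C : Set G)).subgroupOf D) => χ i.out q.out := by
    refine LinearIndependent.of_comp (LinearMap.funLeft K K QuotientGroup.mk) ?_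
    refine (congrArg (fun v : _ → D → K => LinearIndependent K v) ?_).mp h1
    ext i d
    obtain ⟨x, hx⟩ := QuotientGroup.mk_out_eq_mul ((centralizer (C : Set G)).subgroupOf D) d
    have : cmH hD i.out (h _ i.out.2) x = 1 := Subtype.ext (by
      change (i.out : G) * (x : D) * (i.out : G)⁻¹ * ((x : D) : G)⁻¹ = 1
      rw [show (i.out : G) * (x : D) = (x : D) * i.out from x.2 _ i.out.2]
      group)
    simp [χ, hx, this]
  have := h2.fintype_card_le_finrank
  rwa [finrank_fintype_fun_eq_card, ← Nat.card_eq_fintype_card, ← Nat.card_eq_fintype_card] at this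

theorem exists_sym [Group.IsSolvable G] {K : Type*} [Field K] {Z : Subgroup G} [Z.Normal]
    (hZ : Z ≤ centralizer (Z : Set G))
    (hmax : ∀ W : Subgroup G, W.Normal → W ≤ centralizer (W : Set G) → Z ≤ W → W ≤ Z)
    (θ : Z →* K) (hθ : Function.Injective θ) : ∃ (A : Subgroup G) (e : ℕ), A.Normal ∧ Z ≤ A ∧
      A ≤ centralizer (Z : Set G) ∧ (∀ a ∈ A, ∀ b ∈ A, a * b * a⁻¹ * b⁻¹ ∈ Z) ∧
      A ⊓ centralizer (A : Set G) ≤ Z ∧
      (∀ x ∈ centralizer (Z : Set G), (∀ a ∈ A, x * a * x⁻¹ * a⁻¹ ∈ Z) → x ∈ A) ∧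
      Z.relIndex A = e ^ 2 ∧ (e ≠ 1 → ¬ e.Coprime (Nat.card Z)) ∧
      ∀ S : Subgroup G, S.Normal → Z ≤ S → S ≤ A →
        ∃ S' : Subgroup G, S'.Normal ∧ S' ≤ A ∧ S ⊓ S' ≤ Z ∧ A ≤ S ⊔ S' := by
  let π := QuotientGroup.mk' Z
  have hπ : Function.Surjective π := QuotientGroup.mk'_surjective Z
  have hk : ∀ x, π x = 1 ↔ x ∈ Z := fun x => QuotientGroup.eq_one_iff x
  have hcm : ∀ x y, x * y * x⁻¹ * y⁻¹ ∈ Z ↔ π x * π y = π y * π x := fun x y => by
    rw [← hk, map_mul, map_mul, map_mul, map_inv, map_inv, mul_inv_eq_one, mul_inv_eq_iff_eq_mul]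
  obtain ⟨B, ⟨hB1, hB2, hB3⟩, hB⟩ := exists_maximal_of_wellFoundedGT
    (fun B : Subgroup (G ⧸ Z) => B.Normal ∧ B.comap π ≤ centralizer (Z : Set G) ∧
      B ≤ centralizer (B : Set (G ⧸ Z))) ⟨⊥, inferInstance, fun x hx => hZ ((hk x).1 hx), bot_le⟩
  set A := B.comap π with hA
  haveI hAn : A.Normal := hB1.comap π
  have hZA : Z ≤ A := fun x hx => by
    change π x ∈ B
    rw [(hk x).2 hx]; exact B.one_mem
  have hZC : ∀ S ≤ centralizer (Z : Set G), Z ≤ centralizer (S : Set G) :=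
    fun S hS => le_centralizer_iff.1 hS
  have hc : ∀ a ∈ A, ∀ b ∈ A, a * b * a⁻¹ * b⁻¹ ∈ Z := fun a ha b hb => (hcm a b).2 (hB3 hb _ ha)
  have ha : ∀ S : Subgroup G, S.Normal → Z ≤ S → S ≤ A → S ⊓ centralizer (S : Set G) ≤ Z :=
    fun S _ h1 h2 => hmax _ inferInstance (inf_cent_le S) (le_inf h1 (hZC S (h2.trans hB2)))
  have hb : centralizer (A : Set G) ≤ Z := by
    by_contra hne
    haveI : ((centralizer (A : Set G)).map π).Normal := Normal.map inferInstance π hπ
    obtain ⟨N, hN, hN1, hN2, hN3⟩ := Fit.exists_minimal_normal_le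
      ((centralizer (A : Set G)).map π) fun e => hne fun x hx =>
        (hk x).1 (mem_bot.1 (e ▸ mem_map_of_mem π hx))
    obtain ⟨hN4, -⟩ := Fit.minimal_normal_elementary N inferInstance hN1 hN3
    have h1 : N.comap π ≤ centralizer (A : Set G) := fun x hx => by
      obtain ⟨y, hy, e⟩ := hN2 hx
      have : y⁻¹ * x ∈ Z := (hk _).1 (by rw [map_mul, map_inv, e, inv_mul_cancel])
      simpa using mul_mem hy (hZC A hB2 this)
    have h2 := hB ⟨(inferInstance : (B ⊔ N).Normal), ?_, sup_le_cent hB3 (le_centralizer N) ?_⟩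
      le_sup_left
    · refine hN1 (eq_bot_iff.2 fun x hx => ?_)
      obtain ⟨x, rfl⟩ := hπ x
      exact (hk x).2 (ha A hAn hZA le_rfl ⟨h2 (mem_sup_right hx), h1 hx⟩)
    · rw [← comap_sup_eq _ _ _ hπ]
      exact sup_le hB2 (h1.trans (centralizer_le hZA))
    · intro x hx y hy
      obtain ⟨x, rfl⟩ := hπ x
      obtain ⟨y, rfl⟩ := hπ y
      rw [← map_mul, ← map_mul, h1 hy x hx]
  have hrel : ∀ S : Subgroup G, S ≤ centralizer (Z : Set G) →
      (centralizer (A : Set G)).relIndex S = Z.relIndex S :=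
    fun S _ => relIndex_congr fun x _ => ⟨fun h => hb h, fun h => hZC A hB2 h⟩
  refine ⟨A, ?_⟩
  obtain ⟨M, ⟨hM1, hM2, hM3⟩, hM⟩ := exists_maximal_of_wellFoundedGT
    (fun M : Subgroup G => Z ≤ M ∧ M ≤ A ∧ M ≤ centralizer (M : Set G)) ⟨Z, le_rfl, hZA, hZ⟩
  have hMe : (centralizer (M : Set G)).relIndex A = M.relIndex A :=
    relIndex_congr fun x hx => ⟨fun h => hM ⟨hM1.trans le_sup_left,
      sup_le hM2 ((zpowers_le).2 hx), sup_le_cent hM3 (le_centralizer _)
        (le_centralizer_iff.1 ((zpowers_le).2 h))⟩ le_sup_left (mem_sup_right (mem_zpowers x)),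
      fun h => hM3 h⟩
  have e1 := pair θ hθ (hM2.trans hB2) fun a ha b hb => hc a ha b (hM2 hb)
  have e2 := pair θ hθ hB2 fun a ha b hb => hc a (hM2 ha) b hb
  rw [hMe, hrel M (hM2.trans hB2)] at e1 e2
  have e3 : Z.relIndex A = Z.relIndex M ^ 2 := by
    rw [← relIndex_mul_relIndex Z M A hM1 hM2, le_antisymm e1 e2, sq]
  refine ⟨Z.relIndex M, hAn, hZA, hB2, hc, ha A hAn hZA le_rfl, fun x hx h => ?_, e3,
    fun h1 h2 => h1 ?_, fun S hS h1 h2 => ?_⟩
  · let C := centralizer (Z : Set G) ⊓ (centralizer (B : Set (G ⧸ Z))).comap π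
    have hAC : A ≤ C := le_inf hB2 fun x hx => hB3 hx
    have := pair (C := C) θ hθ hB2 fun c h a ha => (hcm c a).2 (h.2 _ ha).symm
    rw [hrel C inf_le_left, ← relIndex_mul_relIndex Z A C hZA hAC] at this
    have h3 := relIndex_le_of_le_left (L := A) (hZC C inf_le_left) (relIndex_pos _ _).ne'
    have h4 := relIndex_pos Z A
    have h5 := relIndex_pos A C
    refine relIndex_eq_one.1 (show A.relIndex C = 1 by nlinarith) ⟨hx, fun b hb => ?_⟩
    obtain ⟨b, rfl⟩ := hπ b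
    exact ((hcm x b).1 (h b hb)).symm
  · have : A ≤ Z := fun a h => ha A hAn hZA le_rfl ⟨h, fun b hb => by
      let φ := cmH hB2 b (hc b hb)
      have h3 : φ ⟨a, h⟩ ^ Z.relIndex M ^ 2 = 1 := by
        rw [← map_pow, ← e3]
        have h4 : ((⟨a, h⟩ ^ Z.relIndex A : A) : G) ∈ Z := (Z.subgroupOf A).pow_index_mem _
        refine Subtype.ext ?_
        change b * ((⟨a, h⟩ ^ Z.relIndex A : A) : G) * b⁻¹ *
          ((⟨a, h⟩ ^ Z.relIndex A : A) : G)⁻¹ = 1
        rw [hZC A hB2 h4 b hb]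
        group
      have h4 := pow_gcd_eq_one.2 ⟨h3, pow_card_eq_one'⟩
      rw [h2.pow_left 2, pow_one] at h4
      have : b * a * b⁻¹ * a⁻¹ = 1 := congrArg Subtype.val h4
      rwa [mul_inv_eq_one, mul_inv_eq_iff_eq_mul] at this⟩
    rw [relIndex_eq_one.2 this] at e3
    exact (pow_eq_one_iff.1 e3.symm).resolve_right two_ne_zero
  · refine ⟨A ⊓ centralizer (S : Set G), inferInstance, inf_le_left,
      fun x hx => ha S hS h1 h2 ⟨hx.1, hx.2.2⟩, ?_⟩
    have := pair θ hθ (h2.trans hB2) fun a ha b hb => hc a ha b (h2 hb)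
    set S' := A ⊓ centralizer (S : Set G)
    have h3 : Z.relIndex S = S'.relIndex (S ⊔ S') := by
      rw [relIndex_sup_right]
      exact relIndex_congr fun x hx => ⟨fun h => ⟨hZA h, hZC S (h2.trans hB2) h⟩,
        fun h => ha S hS h1 h2 ⟨hx, h.2⟩⟩
    have h4 : (centralizer (S : Set G)).relIndex A = S'.relIndex A := (inf_relIndex_left _ _).symm
    rw [hrel S (h2.trans hB2), h3, h4, ← relIndex_mul_relIndex S' (S ⊔ S') A le_sup_right
      (sup_le h2 inf_le_left)] at this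
    have h5 := relIndex_pos S' (S ⊔ S')
    have h6 := relIndex_pos (S ⊔ S') A
    exact relIndex_eq_one.1 (show (S ⊔ S').relIndex A = 1 by nlinarith)

end Cfsg.Agent.KR
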